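import Cfsg.Agent.Lib.KCG.A
import Cfsg.Agent.Lib.EPC.Swap
import Cfsg.Agent.Lib.EPD.A
import Cfsg.Agent.Lib.Blk.ZStar

/-! A `2`-element whose centralizer order is not divisible by `8`. -/

set_option autoImplicit false
set_option linter.unusedSectionVars false

namespace Cfsg.Agent.KCG
open KC J3T EPD Subgroup

variable {G : Type*} [Group G] [Finite G]

theorem conj_syl (T : Sylow 2 G) {y : G} (h : y ^ 2 ^ 2 = 1) : ∃ g, g⁻¹ * y * g ∈ (T : Subgroup G) := by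
  obtain ⟨Q, hQ⟩ := (EPC.pg_zpowers h).exists_le_sylow
  obtain ⟨g, rfl⟩ := MulAction.exists_smul_eq G T Q
  exact ⟨g, R3.mem_smul_sylow.1 (hQ (mem_zpowers y))⟩

theorem eight_dvd (T : Sylow 2 G) {y : G} (h : 4 < Nat.card ↥(centralizer {y} ⊓ (T : Subgroup G))) : 8 ∣ cc y := by
  obtain ⟨k, hk⟩ := (T.2.to_inf_right (H := centralizer {y})).exists_card_eq
  refine (pow_dvd_pow 2 (show 3 ≤ k from by_contra fun e => ?_)).trans (hk ▸ card_dvd_of_le inf_le_left)
  have := Nat.pow_le_pow_right two_pos (show k ≤ 2 by omega)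
  omega

theorem four_gen {b w : G} (hb : orderOf b = 4) (h : w ∈ zpowers b) (hw : orderOf w = 4) : w = b ∨ w = b⁻¹ := by
  classical
  obtain ⟨i, hi, rfl⟩ := Finset.mem_image.1 (mem_zpowers_iff_mem_range_orderOf.1 h)
  have h4 : b ^ 4 = 1 := hb ▸ pow_orderOf_eq_one b
  rw [hb, Finset.mem_range] at hi
  interval_cases i
  · simp at hw
  · exact Or.inl (pow_one b)
  · have : orderOf (b ^ 2) ∣ 2 := orderOf_dvd_of_pow_eq_one (by rw [← pow_mul, h4])
    rw [hw] at this; omega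
  · exact Or.inr (eq_inv_of_mul_eq_one_left (by rw [← pow_succ, h4]))

variable [IsSimpleGroup G] (hG : ¬ IsMulCommutative G)
include hG

theorem tr_false {S D : Subgroup G} (hodd : Odd S.index) (q2 : ∀ x ∈ S, ∀ y ∈ S, x ∉ D → y ∉ D → x * y ∈ D) {x : G}
    (h : ∀ (k : ℕ) g, g⁻¹ * x ^ k * g ∈ S → (g⁻¹ * x ^ k * g ∈ D ↔ Even k)) : False := by
  classical
  let ϕ : S →* ℤˣ := MonoidHom.mk' (fun s => if (s : G) ∈ D then 1 else -1) fun s t => by
    by_cases h1 : (s : G) ∈ D <;> by_cases h2 : (t : G) ∈ D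
    · simp [h1, h2, mul_mem h1 h2]
    · simp [h1, h2, Subgroup.mul_mem_cancel_left D h1]
    · simp [h1, h2, Subgroup.mul_mem_cancel_right D h2]
    · simp [h1, h2, q2 s s.2 t t.2 h1 h2]
  have := Fintype.ofFinite (Quotient (MulAction.orbitRel (zpowers x) (G ⧸ S)))
  have e : MonoidHom.transfer ϕ x = 1 := by
    rcases IsSimpleGroup.eq_bot_or_eq_top_of_normal (MonoidHom.transfer ϕ).ker inferInstance with h | h
    · exact absurd ⟨⟨fun a b => (MonoidHom.ker_eq_bot_iff _).1 h (by simp [mul_comm])⟩⟩ hG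
    · exact MonoidHom.mem_ker.1 (h ▸ Subgroup.mem_top x)
  rw [MonoidHom.transfer_eq_prod_quotient_orbitRel_zpowers_quot, Finset.prod_congr rfl
    (g := fun q => (-1) ^ Function.minimalPeriod (x • ·) q.out) fun q _ => by
      change (if _ then _ else _) = _
      simp only [h _ _ (QuotientGroup.out_conj_pow_minimalPeriod_mem S x q.out), neg_one_pow_eq_ite],
    Finset.prod_pow_eq_pow_sum, ← index_eq_sum_minimalPeriod, hodd.neg_one_pow] at e
  exact absurd e (by decide)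

theorem t4_grp {x : G} {a : ℕ} (hx : orderOf x = 2 ^ a) (x1 : x ≠ 1) (h8 : ¬ 8 ∣ cc x) :
    ((orderOf x = 2 ∧ ¬ 8 ∣ Nat.card G ∧ ∀ y : G, ¬ 4 ∣ orderOf y) ∨
      (orderOf x = 4 ∧ IsConj x x⁻¹ ∧ ¬ 16 ∣ Nat.card G ∧ ∀ y : G, ¬ 8 ∣ orderOf y)) ∧
    (∀ y z : G, orderOf y = 2 → orderOf z = 2 → RC y z) ∧ ∀ y z : G, orderOf y = 4 → orderOf z = 4 → RC y z := by
  obtain ⟨T, hT⟩ := (EPC.pg_zpowers (hx ▸ pow_orderOf_eq_one x)).exists_le_sylow
  have xT := hT (mem_zpowers x)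
  obtain ⟨n, hn⟩ := T.isPGroup'.exists_card_eq
  have odd : Odd (T : Subgroup G).index := Nat.not_even_iff_odd.1 fun e => T.not_dvd_index (even_iff_two_dvd.1 e)
  have hg : Nat.card G = 2 ^ n * (T : Subgroup G).index := by rw [← hn, card_mul_index]
  have le : ∀ k, 2 ^ k ∣ Nat.card G → k ≤ n := fun k h => (Nat.pow_dvd_pow_iff_le_right one_lt_two).1
    ((Nat.Coprime.pow_left k odd.coprime_two_left).dvd_of_dvd_mul_right (hg ▸ h))
  have a1 : a ≠ 0 := fun e => x1 (by rwa [e, pow_zero, orderOf_eq_one_iff] at hx)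
  have a2 : a ≤ 2 := by_contra fun e => h8 ((pow_dvd_pow 2 (show 3 ≤ a by omega)).trans (hx ▸ orderOf_dvd_cc x))
  have a3 := le a (hx ▸ orderOf_dvd_natCard x)
  have nc : ∀ y : G, ¬ 2 ^ n ∣ orderOf y := fun y h =>
    KCP.cyc hG hg odd (by omega) (orderOf_pow_orderOf_div (orderOf_pos y).ne' h)
  have a4 : a ≠ n := fun e => nc x (by rw [hx, e])
  have o2 : ∀ {y : G}, orderOf y = 2 → y * y = 1 ∧ y ≠ 1 := fun {y} h =>
    ⟨by rw [← pow_two, ← h, pow_orderOf_eq_one], fun e => by simp [e] at h⟩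
  have hsq : ∀ s u : G, s * s = 1 → u * s * u⁻¹ * (u * s * u⁻¹) = 1 := fun s u e => by rw [conj_mul, e]; group
  by_cases n2 : n = 2
  · obtain rfl : a = 1 := by omega
    subst n2
    have k : ∀ y, orderOf y = 2 → IsConj y x := fun y hy => by
      obtain ⟨g, i, hi⟩ := EPC.thompson hG T hT (by rw [hn, Nat.card_zpowers, hx]; rfl) (o2 hy).1
      refine isConj_iff.2 ⟨g, ?_⟩
      simp only at hi
      rcases Int.even_or_odd' i with ⟨d, rfl | rfl⟩
      · rw [zpow_mul, zpow_two, (o2 hx).1, one_zpow] at hi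
        exact absurd (conj_eq_one_iff.1 hi.symm) (o2 hy).2
      · rw [← hi, zpow_add, zpow_mul, zpow_two, (o2 hx).1, one_zpow, one_mul, zpow_one]
    exact ⟨Or.inl ⟨hx, fun e => by have := le 3 e; omega, nc⟩,
      fun y z hy hz => RC.of_isConj ((k y hy).trans (k z hz).symm), fun y z hy _ => (nc y (hy ▸ dvd_rfl)).elim⟩
  obtain ⟨j, rfl⟩ : ∃ j, n = j + 3 := ⟨n - 3, by omega⟩
  have hcc : cc (⟨x, xT⟩ : (T : Subgroup G)) = Nat.card ↥(centralizer {x} ⊓ (T : Subgroup G)) := by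
    rw [cc, ← card_map_of_injective (T : Subgroup G).subtype_injective]
    congr 2
    ext y
    simp only [mem_map, mem_inf, mem_centralizer_singleton_iff]
    exact ⟨fun ⟨y, h1, h2⟩ => h2 ▸ ⟨congrArg Subtype.val h1, y.2⟩, fun ⟨h1, h2⟩ => ⟨⟨y, h2⟩, Subtype.ext h1, rfl⟩⟩
  obtain ⟨⟨b, bT⟩, ho⟩ := KCP.cyc_index_two j (T : Subgroup G) hn _
    (hcc.le.trans (not_lt.1 fun e => h8 (eight_dvd T e)))
  rw [← orderOf_coe] at ho
  simp only at ho
  obtain ⟨z, hz⟩ : ∃ z, z = b ^ 2 ^ (j + 1) := ⟨_, rfl⟩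
  have hAT : zpowers b ≤ T := zpowers_le.2 bT
  have hi2 : ((zpowers b).subgroupOf T).index = 2 := by
    have := ((zpowers b).subgroupOf T).card_mul_index
    rw [Nat.card_congr (subgroupOfEquivOfLe hAT).toEquiv, Nat.card_zpowers, ho, hn, pow_succ _ (j + 2)] at this
    exact Nat.eq_of_mul_eq_mul_left (by positivity) this
  have p2 : ∀ x ∈ (T : Subgroup G), ∀ y ∈ (T : Subgroup G), x ∉ zpowers b → y ∉ zpowers b → x * y ∈ zpowers b :=
    fun x hx y hy hx' hy' => (mul_mem_iff_of_index_two hi2 (a := ⟨x, hx⟩) (b := ⟨y, hy⟩)).2 (iff_of_false hx' hy')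
  have hzA : z ∈ zpowers b := le_A b (z_mem2 hz)
  have hzc : ∀ t ∈ (T : Subgroup G), t * z = z * t := fun t ht =>
    mul_inv_eq_iff_eq_mul.1 ((invA ho hz (conj_mem T bT p2 ht hzA) (hsq _ _ (z_sq ho hz))).resolve_left
      fun e => z_ne ho hz (conj_eq_one_iff.1 e))
  have hAc : ∀ x ∈ zpowers b, ∀ y ∈ zpowers b, x * y = y * x := by
    rintro _ ⟨m, rfl⟩ _ ⟨n, rfl⟩
    exact zpow_mul_comm b m n
  have k : ∀ y, orderOf y = 2 → IsConj y z := fun y hy => by
    obtain ⟨g, hi⟩ := EPC.thompson hG T hAT (by rw [hn, Nat.card_zpowers, ho]; ring) (o2 hy).1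
    exact isConj_iff.2 ⟨g, (invA ho hz hi (hsq _ _ (o2 hy).1)).resolve_left fun e => (o2 hy).2 (conj_eq_one_iff.1 e)⟩
  have big : ∀ y, (∀ t ∈ (T : Subgroup G), t * y = y * t) → 8 ∣ cc y := fun y h => eight_dvd T (by
    rw [inf_eq_right.2 fun t ht => mem_centralizer_singleton_iff.2 (h t ht), hn]
    have := Nat.pow_le_pow_right two_pos (show 3 ≤ j + 3 by omega)
    omega)
  obtain rfl : a = 2 := by_contra fun e => h8 (by
    rw [cc_isConj (k x (by rw [hx, show a = 1 by omega]; rfl))]; exact big z hzc)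
  obtain ⟨u, uT, uA, u2⟩ : ∃ u ∈ (T : Subgroup G), u ∉ zpowers b ∧ u * u = 1 := by
    obtain ⟨g, h1, h2⟩ := Blk.exists_conj_commute (z_ne ho hz) (z_sq ho hz) (by
      by_contra hc
      push Not at hc
      rcases (inferInstance : (center G).Normal).eq_bot_or_eq_top with h' | h'
      · exact z_ne ho hz (mem_bot.1 (h' ▸ mem_center_iff.2 fun g => (hc g).eq))
      · exact hG ⟨⟨fun a b => mem_center_iff.1 (h' ▸ mem_top b) a⟩⟩)
    obtain ⟨E, hE, -, e1, e2⟩ := EPC.dihedral_two (D := ⊥) IsPGroup.of_bot (x := g * z * g⁻¹) (y := z)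
      (EPC.nm_of fun y hy => by simp [mem_bot.1 hy]) (EPC.nm_of fun y hy => by simp [mem_bot.1 hy])
      (mem_bot.2 (hsq _ _ (z_sq ho hz)))
      (mem_bot.2 (z_sq ho hz)) (n := 1) (by rw [pow_one, h1.mul_pow, pow_two, pow_two, hsq _ _ (z_sq ho hz),
        z_sq ho hz, one_mul])
    obtain ⟨Q, hQ⟩ := hE.exists_le_sylow
    obtain ⟨l, rfl⟩ := MulAction.exists_smul_eq G T Q
    have s1 := hsq _ l⁻¹ (hsq _ g (z_sq ho hz))
    have s2 := hsq _ l⁻¹ (z_sq ho hz)
    rw [inv_inv] at s1 s2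
    by_contra hc
    push Not at hc
    have f : ∀ {w}, w ≠ 1 → l⁻¹ * w * l ∈ (T : Subgroup G) → l⁻¹ * w * l * (l⁻¹ * w * l) = 1 → l⁻¹ * w * l = z :=
      fun w1 h h' => (invA ho hz (by_contra fun e => hc _ h e h') h').resolve_left
        fun e => w1 (conj_eq_one_iff.1 (by rwa [inv_inv]))
    have := (f (fun e => z_ne ho hz (conj_eq_one_iff.1 e)) (R3.mem_smul_sylow.1 (hQ e1)) s1).trans
      (f (z_ne ho hz) (R3.mem_smul_sylow.1 (hQ e2)) s2).symm
    exact h2 (by simpa using this)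
  have ui : u⁻¹ = u := inv_eq_of_mul_eq_one_right u2
  have out : ∀ {c : G}, u * c * u⁻¹ = c⁻¹ → (∀ w ∈ zpowers c, u * w * u⁻¹ = w⁻¹) ∧
      ∀ t, t * u ∈ zpowers c → t * t = 1 := fun {c} h => by
    have : ∀ w ∈ zpowers c, u * w * u⁻¹ = w⁻¹ := by
      rintro _ ⟨i, rfl⟩
      simp only
      rw [← conj_zpow, h, inv_zpow]
    refine ⟨this, fun t ht => ?_⟩
    calc t * t = t * (u * u) * t := by rw [u2, mul_one]
      _ = t * u * (u * (t * u) * u⁻¹) := by group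
      _ = 1 := by rw [this _ ht, mul_inv_cancel]
  have xx : x * x ≠ 1 := fun e => by
    have : orderOf x ∣ 2 := orderOf_dvd_of_pow_eq_one (by rw [pow_two, e])
    rw [hx] at this; omega
  have i2 := fun y z hy hz => RC.of_isConj ((k y hy).trans (k z hz).symm)
  by_cases hA : ∃ y ∈ zpowers b, ¬ 8 ∣ cc y
  · obtain ⟨y, hy, y8⟩ := hA
    have cy := cc_dvd_of_mem hy
    obtain rfl : j = 0 := by_contra fun e =>
      y8 (((pow_dvd_pow 2 (show 3 ≤ j + 2 by omega)).trans (ho ▸ orderOf_dvd_cc b)).trans cy)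
    have hu : u * b * u⁻¹ = b⁻¹ := (four_gen ho (conj_mem T bT p2 uT (mem_zpowers b))
      ((orderOf_isConj (isConj_iff.2 ⟨u, rfl⟩)).symm.trans ho)).resolve_left fun e => y8 ((big b fun t ht => by
        by_cases h : t ∈ zpowers b
        · exact hAc _ h _ (mem_zpowers b)
        · have h1 : Commute (t * u) b := hAc _ (p2 _ ht _ uT h uA) _ (mem_zpowers b)
          have h2 : Commute u b := mul_inv_eq_iff_eq_mul.1 e
          simpa using (h1.mul_left h2.inv_left).eq).trans cy)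
    have mA : ∀ w ∈ (T : Subgroup G), orderOf w = 4 → w ∈ zpowers b := fun w hw w4 => by_contra fun e => by
      have : orderOf w ∣ 2 := orderOf_dvd_of_pow_eq_one (by rw [pow_two, (out hu).2 w (p2 _ hw _ uT e uA)])
      rw [w4] at this; omega
    have k4 : ∀ w, orderOf w = 4 → IsConj b w := fun w hw => by
      obtain ⟨g, hg⟩ := conj_syl T (y := w) (show w ^ 4 = 1 from hw ▸ pow_orderOf_eq_one w)
      have c : IsConj (g⁻¹ * w * g) w := isConj_iff.2 ⟨g, by group⟩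
      refine IsConj.trans ?_ c
      rcases four_gen ho (mA _ hg ((orderOf_isConj c).trans hw)) ((orderOf_isConj c).trans hw) with e | e
      · rw [e]
      · rw [e]; exact isConj_iff.2 ⟨u, hu⟩
    exact ⟨Or.inr ⟨hx, isConj_iff.2 ⟨u, (out hu).1 x (mA x xT hx)⟩, fun e => by have := le 4 e; omega, nc⟩, i2,
      fun y z hy hz => RC.of_isConj ((k4 y hy).symm.trans (k4 z hz))⟩
  exfalso
  push Not at hA
  have h2 : ∀ y ∈ zpowers (b ^ 2), u * y * u ∈ zpowers (b ^ 2) := fun y hy => by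
    have := conj_mem2 T bT p2 uT hy
    rwa [ui] at this
  have h3 : ∀ y ∈ zpowers b, u * y * u ∈ zpowers b := fun y hy => by
    have := conj_mem T bT p2 uT hy
    rwa [ui] at this
  have h4 : ∀ y, y ∉ zpowers (b ^ 2) → u * y * u ∉ zpowers (b ^ 2) := fun y hy e => hy (by
    have := h2 _ e
    rwa [show u * (u * y * u) * u = (u * u) * y * (u * u) by group, u2, one_mul, mul_one] at this)
  have x4 : x ^ 4 = 1 := (show orderOf x = 4 from hx) ▸ pow_orderOf_eq_one x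
  refine tr_false hG odd (D := KK b u u2 h2) (fun x hx y hy hx' hy' => ?_) (x := x) fun k g hg => ?_
  · obtain ⟨x1, x2⟩ := not_or.1 hx'
    obtain ⟨y1, y2⟩ := not_or.1 hy'
    by_cases xA : x ∈ zpowers b <;> by_cases yA : y ∈ zpowers b
    · exact Or.inl (mul_mem2 xA yA x1 y1)
    · exact Or.inr (by rw [mul_assoc]; exact mul_mem2 xA (p2 _ hy _ uT yA uA) x1 y2)
    · refine Or.inr ?_
      have := mul_mem2 (p2 _ hx _ uT xA uA) (h3 _ yA) x2 (h4 _ y1)
      rwa [show x * u * (u * y * u) = x * (u * u) * y * u by group, u2, mul_one] at this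
    · refine Or.inl ?_
      have := mul_mem2 (p2 _ hx _ uT xA uA) (h3 _ (p2 _ hy _ uT yA uA)) x2 (h4 _ y2)
      rwa [show x * u * (u * (y * u) * u) = x * (u * u) * y * (u * u) by group, u2, mul_one, mul_one] at this
  rcases Nat.even_or_odd k with he | hk
  · refine iff_of_true ?_ he
    obtain ⟨d, rfl⟩ := he
    have w2 := hsq _ g⁻¹ (show x ^ (d + d) * x ^ (d + d) = 1 by
      rw [← pow_add, show d + d + (d + d) = 4 * d by ring, pow_mul, x4, one_pow])
    rw [inv_inv] at w2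
    generalize g⁻¹ * x ^ (d + d) * g = w at hg w2
    by_cases wA : w ∈ zpowers b
    · rcases invA ho hz wA w2 with rfl | rfl
      exacts [one_mem _, Or.inl (z_mem2 hz)]
    refine Or.inr (by_contra fun e => xx ((out (c := w * u) ?_).2 x ?_))
    · rw [mul_inv_rev, inv_eq_of_mul_eq_one_right w2, ui]; simp [mul_assoc, u2]
    obtain ⟨i, hi⟩ := p2 _ hg _ uT wA uA
    simp only at hi
    refine zpowers_le.2 ?_ (p2 _ xT _ uT (fun e => h8 (hA x e)) uA)
    rw [← hi, mem_zpowers_zpow_iff, ho]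
    rcases Int.even_or_odd' i with ⟨d, rfl | rfl⟩
    · exact (e ⟨d, by simp only; rw [← hi, zpow_mul, zpow_two, pow_two]⟩).elim
    · exact Int.isCoprime_iff_gcd_eq_one.1 (by
        push_cast; exact IsCoprime.pow_right ⟨1, -d, by ring⟩)
  refine iff_of_false ?_ (Nat.not_even_iff_odd.2 hk)
  have r : RC x (g⁻¹ * x ^ k * g) := ⟨k, hx ▸ Nat.Coprime.pow_right 2 hk.coprime_two_right,
    isConj_iff.2 ⟨g⁻¹, by group⟩⟩
  have y8 := r.cc_eq ▸ h8
  have y4 := r.orderOf_eq ▸ hx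
  generalize g⁻¹ * x ^ k * g = y at hg y8 y4
  have yA : y ∉ zpowers b := fun e => y8 (hA y e)
  rintro (e | ⟨m, hm⟩)
  · exact yA (le_A b e)
  simp only at hm
  rw [← zpow_natCast, ← zpow_mul, mul_comm, zpow_mul, zpow_natCast, pow_two] at hm
  have cA : b ^ m ∈ zpowers b := ⟨m, rfl⟩
  generalize b ^ m = c at hm cA
  have yy := sq_mem T p2 hg
  have y2 : y * y = z := (invA ho hz yy (by
    rw [← pow_two, ← pow_two, ← pow_mul]; exact orderOf_dvd_iff_pow_eq_one.1 y4.dvd)).resolve_left fun e => by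
      have : orderOf y ∣ 2 := orderOf_dvd_of_pow_eq_one (by rw [pow_two, e])
      rw [y4] at this; omega
  have c' := conj_mem T bT p2 hg cA
  have d2 : c * (y * c * y⁻¹) * (c * (y * c * y⁻¹)) = z := by
    rw [(show Commute (y * c * y⁻¹) c from hAc _ c' _ cA).mul_mul_mul_comm, conj_mul, hm]
    calc _ = y * (u * (y * y) * u) * y⁻¹ := by group
      _ = _ := by rw [y2, hzc u uT, mul_assoc z, u2, mul_one, hzc y hg, mul_inv_cancel_right]
  have dy : c * (y * c * y⁻¹) * y = y * (c * (y * c * y⁻¹)) :=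
    calc _ = y * c * y⁻¹ * c * y := by rw [hAc _ cA _ c']
      _ = y * c * y⁻¹ * (c * (y * y)) * y⁻¹ := by group
      _ = _ := by rw [← hAc _ yy _ cA]; group
  have dA := mul_mem cA c'
  generalize c * (y * c * y⁻¹) = d at d2 dy dA
  have d4 : orderOf d = 2 ^ 2 := orderOf_eq_prime_pow (by rw [pow_one, pow_two, d2]; exact z_ne ho hz)
    (by rw [pow_succ, pow_one, pow_mul, pow_two, pow_two, d2, z_sq ho hz])
  refine y8 (eight_dvd T (lt_of_eq_of_lt (by rw [Nat.card_zpowers, d4]; rfl) (R3.card_lt_of_lt (A := zpowers d)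
    (lt_of_le_of_ne (zpowers_le.2 ⟨mem_centralizer_singleton_iff.2 dy, hAT dA⟩) fun e => yA (zpowers_le.2 dA ?_)))))
  rw [e]; exact ⟨mem_centralizer_singleton_iff.2 rfl, hg⟩

theorem t4 {xs : List G} (h : Reps xs) : ∀ x ∈ xs.map dat, ∀ a, x.1 = 2 ^ a → ¬ 8 ∣ x.2.2 →
    ((x.1 = 2 ∧ ¬ 8 ∣ Nat.card G ∧ ∀ y ∈ xs.map dat, ¬ 4 ∣ y.1) ∨
      (x.1 = 4 ∧ x.2.1 = 1 ∧ ¬ 16 ∣ Nat.card G ∧ ∀ y ∈ xs.map dat, ¬ 8 ∣ y.1)) ∧
    (xs.map dat).Pairwise fun y z => ¬ (y.1 = 2 ∧ z.1 = 2) ∧ ¬ (y.1 = 4 ∧ z.1 = 4) := by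
  intro x hx a ha h8
  obtain ⟨x, hx', rfl⟩ := List.mem_map.1 hx
  obtain ⟨h1, h2, h3⟩ := t4_grp hG ha (h.ne x hx') h8
  refine ⟨h1.imp (fun e => ⟨e.1, e.2.1, List.forall_mem_map.2 fun y _ => e.2.2 y⟩)
    fun e => ⟨e.1, ?_, e.2.2.1, List.forall_mem_map.2 fun y _ => e.2.2.2 y⟩,
    List.pairwise_map.2 (h.pw.imp fun hn => ⟨fun e => hn (h2 _ _ e.1 e.2), fun e => hn (h3 _ _ e.1 e.2)⟩)⟩
  have h4 := ns_mul x
  rw [e.1, show Nat.totient 4 = 2 by decide] at h4
  have h5 : ee x ≠ 1 := fun e1 => by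
    obtain ⟨g, hg⟩ := isConj_iff.1 e.2.1
    have := (eq_of_le_of_card_ge (cent_le_norm x) (by have := ee_mul x; rw [e1, one_mul] at this; exact this.ge)).ge
      (mem_norm_iff.2 (hg ▸ inv_mem (mem_zpowers x)))
    rw [mem_centralizer_singleton_iff.1 this, mul_inv_cancel_right] at hg
    have : orderOf x ∣ 2 := orderOf_dvd_of_pow_eq_one (by rw [pow_two]; nth_rw 2 [hg]; simp)
    rw [e.1] at this; omega
  change ns x = 1
  have := (Nat.dvd_prime Nat.prime_two).1 (Dvd.intro_left _ h4)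
  rw [this.resolve_left h5] at h4
  omega

end Cfsg.Agent.KCG
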