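import Cfsg.Agent.Lib.KCG.B

/-! Elements of order `m * q` whose centralizer order is not divisible by `q * q`. -/

set_option autoImplicit false
set_option linter.unusedSectionVars false

open Finset Classical

namespace Cfsg.Agent.KCG
open KC J3T

variable {G : Type*} [Group G]

theorem sq_dvd_cc [Finite G] {x : G} {p : ℕ} (hp : p.Prime) (ho : orderOf x = p)
    (h0 : p * p ∣ Nat.card G) : p * p ∣ cc x := by
  by_contra h
  have := Fact.mk hp
  have hx : x ≠ 1 := ne_one_of_order ho hp.one_lt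
  obtain ⟨P, hP⟩ := (IsPGroup.of_card (n := 1)
    ((Nat.card_zpowers x).trans (ho.trans (pow_one p).symm))).exists_le_sylow
  have hxP : x ∈ (P : Subgroup G) := hP (Subgroup.mem_zpowers x)
  have hP0 : (P : Subgroup G) ≠ ⊥ := fun e => hx (by rwa [e, Subgroup.mem_bot] at hxP)
  obtain ⟨z, hz, hzo, hc⟩ := SL2.exists_central_of_isPGroup P.2 hP0
  obtain ⟨j, hj⟩ := (P.isPGroup'.to_le
    (inf_le_left : (P : Subgroup G) ⊓ Subgroup.centralizer {x} ≤ P)).exists_card_eq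
  have h1 : j ≤ 1 := by
    by_contra hc
    refine h (Dvd.dvd.trans ?_ (Subgroup.card_dvd_of_le
      (inf_le_right : (P : Subgroup G) ⊓ Subgroup.centralizer {x} ≤ _)))
    rw [hj, ← sq]
    exact pow_dvd_pow _ (by omega)
  have h2 : Nat.card ((P : Subgroup G) ⊓ Subgroup.centralizer {x} : Subgroup G) ≤ p := by
    rw [hj]
    exact (Nat.pow_le_pow_right hp.pos h1).trans (pow_one p).le
  have h3 : Subgroup.zpowers z = (P : Subgroup G) ⊓ Subgroup.centralizer {x} :=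
    Subgroup.eq_of_le_of_card_ge (Subgroup.zpowers_le.2
      ⟨hz, Subgroup.mem_centralizer_singleton_iff.2 (hc x hxP).symm⟩) (by rwa [Nat.card_zpowers, hzo])
  have h4 : x ∈ Subgroup.zpowers z := h3 ▸ ⟨hxP, Subgroup.mem_centralizer_singleton_iff.2 rfl⟩
  have h5 : (P : Subgroup G) ≤ Subgroup.centralizer {x} := fun y hy =>
    cent_le_of_mem h4 (Subgroup.mem_centralizer_singleton_iff.2 (hc y hy))
  rw [inf_eq_left.2 h5] at h3
  have h6 : Nat.card (P : Subgroup G) = p := by rw [← h3, Nat.card_zpowers, hzo]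
  have := P.pow_dvd_card_of_pow_dvd_card (n := 2) (by rwa [sq])
  rw [h6, sq] at this
  exact hp.one_lt.ne' (Nat.eq_one_of_dvd_one (Nat.dvd_of_mul_dvd_mul_left hp.pos (by rwa [mul_one])))

theorem sq_dvd_cc_of_pow [Finite G] {z : G} {m q : ℕ} (hq : q.Prime) (hqm : ¬ q ∣ m)
    (hz : orderOf z = m * q) (h : q * q ∣ cc (z ^ q)) : q * q ∣ cc z := by
  have := Fintype.ofFinite G
  have hm0 : m ≠ 0 := fun e => hqm (e ▸ dvd_zero q)
  have h1 : z ^ m ∈ Cz (z ^ q) := mem_Cz.2 (Commute.pow_pow_self z m q)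
  have h2 : orderOf (⟨z ^ m, h1⟩ : Cz (z ^ q)) = q := by
    rw [← Subgroup.orderOf_coe]
    change orderOf (z ^ m) = q
    rw [orderOf_pow_of_dvd hm0 (hz ▸ dvd_mul_right _ _), hz,
      Nat.mul_div_cancel_left _ (Nat.pos_of_ne_zero hm0)]
  refine (sq_dvd_cc hq h2 h).trans ?_
  rw [cc, ← Subgroup.card_map_of_injective (Cz (z ^ q)).subtype_injective]
  refine Subgroup.card_dvd_of_le ?_
  rintro _ ⟨g, hg, rfl⟩
  have a1 : Commute (g : G) (z ^ q) := mem_Cz.1 g.2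
  have a2 : Commute (g : G) (z ^ m) := congrArg Subtype.val (mem_Cz.1 hg)
  have a3 : z = (z ^ q) ^ Nat.gcdA q m * (z ^ m) ^ Nat.gcdB q m := by
    rw [← zpow_natCast, ← zpow_natCast, ← zpow_mul, ← zpow_mul, ← zpow_add, ← Nat.gcd_eq_gcd_ab,
      ((Nat.Prime.coprime_iff_not_dvd hq).2 hqm).gcd_eq_one, Nat.cast_one, zpow_one]
  have a4 := (a1.zpow_right (Nat.gcdA q m)).mul_right (a2.zpow_right (Nat.gcdB q m))
  rw [← a3] at a4
  exact mem_Cz.2 a4

theorem sq2 [Finite G] {xs : List G} (h : Reps xs) : ∀ m q : ℕ, q.Prime → ¬ q ∣ m → 1 < m →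
    ((xs.map dat).filter fun x => x.1 = m * q ∧ ¬ q * q ∣ x.2.2).length ≤
      ((xs.map dat).filter fun x => x.1 = m ∧ q ∣ x.2.2 ∧ ¬ q * q ∣ x.2.2).length := by
  intro m q hq hqm hm
  have h2 : ∀ z : G, ∃ x : G, orderOf z = m * q → x ∈ xs ∧ orderOf x = m ∧ RC x (z ^ q) := fun z => by
    by_cases e : orderOf z = m * q
    · have e1 : orderOf (z ^ q) = m := by
        rw [orderOf_pow_of_dvd hq.ne_zero (e ▸ dvd_mul_left _ _), e, Nat.mul_div_cancel _ hq.pos]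
      obtain ⟨x, hx, e2⟩ := h.cover _ (ne_one_of_order e1 hm)
      exact ⟨x, fun _ => ⟨hx, e2.orderOf_eq.trans e1, e2⟩⟩
    · exact ⟨1, fun e1 => absurd e1 e⟩
  choose r hr using h2
  rw [length_filter h, length_filter h]
  refine card_le_card_of_injOn r (fun z hz => ?_) fun z hz w hw e => ?_
  · obtain ⟨e, e0⟩ : orderOf z = m * q ∧ ¬ q * q ∣ cc z := of_decide_eq_true (mem_filter.1 hz).2
    obtain ⟨e1, e2, e3⟩ := hr z e
    refine mem_filter.2 ⟨List.mem_toFinset.2 e1, decide_eq_true ⟨e2, ?_⟩⟩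
    change q ∣ cc (r z) ∧ ¬ q * q ∣ cc (r z)
    rw [e3.cc_eq]
    exact ⟨((e ▸ dvd_mul_left _ _ : q ∣ orderOf z).trans (orderOf_dvd_cc z)).trans (cc_dvd_pow z q),
      fun e4 => e0 (sq_dvd_cc_of_pow hq hqm e e4)⟩
  · obtain ⟨ez, e0⟩ : orderOf z = m * q ∧ ¬ q * q ∣ cc z := of_decide_eq_true (mem_filter.1 hz).2
    have ew : orderOf w = m * q := (of_decide_eq_true (mem_filter.1 hw).2).1
    obtain ⟨e1, e2, e3⟩ := hr z ez
    refine eq_of_rc h (List.mem_toFinset.1 (mem_filter.1 hz).1)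
      (List.mem_toFinset.1 (mem_filter.1 hw).1)
      (KCP.sq hq hqm ez ew (e3.symm.trans (e ▸ (hr w ew).2.2)) ?_)
    rw [sq]
    exact fun e4 => e0 (sq_dvd_cc_of_pow hq hqm ez e4)

end Cfsg.Agent.KCG
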