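import Cfsg.Agent.Lib.KCG.B

/-! Frobenius' theorem in centralizers of elements of prime power order, in terms of class data. -/

set_option autoImplicit false
set_option linter.unusedSectionVars false

open Finset Classical

namespace Cfsg.Agent.KCG
open KC J3T

variable {G : Type*} [Group G]

theorem rc_pow [Finite G] {z w : G} (h : RC z w) (m : ℕ) : RC (z ^ m) (w ^ m) := by
  obtain ⟨j, hj, h⟩ := h
  refine ⟨j, hj.of_dvd_right (orderOf_pow_dvd m), ?_⟩
  rw [← pow_mul, mul_comm, pow_mul]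
  exact h.pow m

theorem exists_sub [Finite G] (x : G) : ∃ H : Subgroup (ZMod (orderOf x))ˣ, H.index = ns x ∧
    ∀ u, u ∈ H ↔ IsConj x (x ^ (u : ZMod (orderOf x)).val) := by
  obtain ⟨f, h1, h2, -⟩ := exists_hom x
  have : NeZero (orderOf x) := ⟨(orderOf_pos x).ne'⟩
  refine ⟨f.range, ?_, fun u => ⟨?_, fun h => ?_⟩⟩
  · have h3 := f.range.index_mul_card
    rw [h2, Nat.card_eq_fintype_card, ZMod.card_units_eq_totient, ← ns_mul] at h3
    exact Nat.eq_of_mul_eq_mul_right (ee_pos x) h3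
  · rintro ⟨g, rfl⟩
    exact isConj_iff.2 ⟨g, h1 g⟩
  · obtain ⟨g, hg⟩ := isConj_iff.1 h
    refine ⟨⟨g, mem_norm_iff.2 (hg ▸ Subgroup.npow_mem_zpowers x _)⟩, ?_⟩
    ext
    refine ZMod.val_injective _ (pow_injOn_Iio_orderOf (x := x) (ZMod.val_lt _) (ZMod.val_lt _) ?_)
    exact (h1 _).symm.trans hg

theorem ns_pow_dvd [Finite G] (z : G) (m : ℕ) : ns (z ^ m) ∣ ns z := by
  obtain ⟨H, h1, h2⟩ := exists_sub z
  obtain ⟨K, h3, h4⟩ := exists_sub (z ^ m)
  have : NeZero (orderOf z) := ⟨(orderOf_pos z).ne'⟩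
  have hd : orderOf (z ^ m) ∣ orderOf z := orderOf_pow_dvd m
  rw [← h1, ← h3]
  refine (Subgroup.index_dvd_of_le (H := H.map (ZMod.unitsMap hd)) ?_).trans
    (H.index_map_dvd (ZMod.unitsMap_surjective hd))
  rintro _ ⟨u, hu, rfl⟩
  rw [h4, ZMod.unitsMap_val, ZMod.cast_eq_val, ZMod.val_natCast, pow_mod_orderOf, ← pow_mul,
    mul_comm, pow_mul]
  exact ((h2 u).1 hu).pow m

theorem pow_inj' {w v : G} {j N : ℕ} (hN : 0 < N) (hj : j.Coprime N) (hw : w ^ N = 1) (hv : v ^ N = 1)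
    (e : w ^ j = v ^ j) : w = v := by
  have h1 : ∀ u : G, u ^ N = 1 → (u ^ j) ^ (j ^ (Nat.totient N - 1)) = u := fun u hu => by
    rw [← pow_mul, ← pow_succ', Nat.sub_add_cancel (Nat.totient_pos.2 hN)]
    rw [(pow_eq_pow_iff_modEq.2 ((Nat.ModEq.pow_totient hj).of_dvd
      (orderOf_dvd_of_pow_eq_one hu)) : u ^ _ = u ^ 1), pow_one]
  rw [← h1 w hw, e, h1 v hv]

theorem part_iff {u w : G} {n m e : ℕ} (h1 : e ≡ 1 [MOD n]) (h2 : m ∣ e) (hu : u ^ n = 1)
    (hw : w ^ (n * m) = 1) : (Commute u w ∧ (u⁻¹ * w) ^ m = 1) ↔ w ^ e = u := by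
  constructor
  · rintro ⟨c, h⟩
    obtain ⟨k, rfl⟩ := h2
    have c' : Commute u (u⁻¹ * w) := (Commute.refl u).inv_right.mul_right c
    have h3 := c'.mul_pow (m * k)
    rw [mul_inv_cancel_left, pow_mul (u⁻¹ * w), h, one_pow, mul_one] at h3
    rw [h3, (pow_eq_pow_iff_modEq.2 (h1.of_dvd (orderOf_dvd_of_pow_eq_one hu)) : u ^ _ = u ^ 1),
      pow_one]
  · rintro rfl
    refine ⟨Commute.pow_self w e, ?_⟩
    rw [(Commute.pow_self w e).inv_left.mul_pow, inv_pow, inv_mul_eq_one, ← pow_mul]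
    have h3 := h1.mul_right' m
    rw [one_mul] at h3
    exact pow_eq_pow_iff_modEq.2 (h3.of_dvd (orderOf_dvd_of_pow_eq_one hw))

section
variable [Fintype G]

theorem fib_le {z u v : G} {m : ℕ} (e : ℕ) (hc : (orderOf u).Coprime m) (hz : orderOf z = orderOf u * m)
    (h : RC u v) : ((rc z).filter fun w => w ^ e = u).card ≤ ((rc z).filter fun w => w ^ e = v).card := by
  obtain ⟨j, hj, h⟩ := h
  obtain ⟨g, rfl⟩ := isConj_iff.1 h
  obtain ⟨i, h1, h2⟩ := Nat.chineseRemainder hc j 1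
  have hi : i.Coprime (orderOf z) := by
    rw [hz]
    refine Nat.Coprime.mul_right ?_ ?_
    · rw [Nat.Coprime, h1.gcd_eq]; exact hj
    · rw [Nat.Coprime, h2.gcd_eq]; exact Nat.gcd_one_left m
  refine card_le_card_of_injOn (fun w => g * w ^ i * g⁻¹) (fun w hw => ?_) fun w hw w' hw' e => ?_
  · obtain ⟨h3, h4⟩ := mem_filter.1 hw
    have h5 := mem_rc.1 h3
    refine mem_filter.2 ⟨mem_rc.2 (h5.trans ⟨i, h5.orderOf_eq ▸ hi, isConj_iff.2 ⟨g, rfl⟩⟩), ?_⟩
    rw [conj_pow, ← pow_mul, mul_comm i, pow_mul, h4, (pow_eq_pow_iff_modEq.2 h1 : u ^ i = u ^ j)]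
  · refine pow_inj' (orderOf_pos z) hi ?_ ?_ (mul_left_cancel (mul_right_cancel e))
    · rw [(mem_rc.1 (mem_filter.1 hw).1).orderOf_eq, pow_orderOf_eq_one]
    · rw [(mem_rc.1 (mem_filter.1 hw').1).orderOf_eq, pow_orderOf_eq_one]

theorem fib_card {x z : G} {m : ℕ} (hc : (orderOf x).Coprime m) (hz : orderOf z = orderOf x * m)
    (h : RC x (z ^ m)) : ((rc z).filter fun w => Commute x w ∧ (x⁻¹ * w) ^ m = 1).card =
      ns z / ns x * (cc x / cc z) := by
  obtain ⟨e, h1, h2⟩ := Nat.chineseRemainder hc 1 0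
  have h2' := Nat.modEq_zero_iff_dvd.1 h2
  have h3 : ((rc z).filter fun w => Commute x w ∧ (x⁻¹ * w) ^ m = 1) =
      (rc z).filter fun w => w ^ e = x := filter_congr fun w hw =>
    part_iff h1 h2' (pow_orderOf_eq_one x) (by rw [← hz, (mem_rc.1 hw).orderOf_eq, pow_orderOf_eq_one])
  have h4 : (rc z).card = ∑ u ∈ rc x, ((rc z).filter fun w => w ^ e = u).card := by
    refine card_eq_sum_card_fiberwise fun w hw => ?_
    obtain ⟨k, rfl⟩ := h2'
    have h5 := h.trans (rc_pow (mem_rc.1 hw) m)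
    refine mem_rc.2 (h5.trans ⟨k, ?_, by rw [pow_mul]⟩)
    rw [← h5.orderOf_eq]
    refine Nat.Coprime.of_dvd_left (dvd_mul_left k m) ?_
    rw [Nat.Coprime, h1.gcd_eq]; exact Nat.gcd_one_left _
  rw [sum_const_nat (m := ((rc z).filter fun w => w ^ e = x).card) fun u hu => by
    have h5 := mem_rc.1 hu
    exact le_antisymm (fib_le e (h5.orderOf_eq ▸ hc) (h5.orderOf_eq ▸ hz) h5.symm)
      (fib_le e hc hz h5)] at h4
  rw [h3]
  generalize ((rc z).filter fun w => w ^ e = x).card = F at h4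
  have h5 : ns x ∣ ns z := by
    have := congrArg (fun t => t.2.1) h.dat_eq
    simp only [dat] at this
    exact this ▸ ns_pow_dvd z m
  have h6 : cc z ∣ cc x := h.cc_eq ▸ cc_dvd_pow z m
  have h7 := card_rc x
  have h8 := card_rc z
  obtain ⟨s, hs⟩ := h5
  obtain ⟨k, hk⟩ := h6
  rw [hs, hk, Nat.mul_div_cancel_left _ (ns_pos x), Nat.mul_div_cancel_left _ (cc_pos z)]
  rw [h4, hs] at h8
  rw [hk] at h7
  refine Nat.eq_of_mul_eq_mul_left (Nat.mul_pos (ns_pos x) (Nat.card_pos (α := G))) ?_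
  calc _ = (rc x).card * F * cc z * k := by rw [← h7]; ring
    _ = _ := by rw [h8]; ring

end

theorem sum_filter_filter {α β : Type*} (f : α → β) (Q : α → Prop) [DecidablePred Q] (P : β → Prop)
    [DecidablePred P] (F : β → ℕ) (l : List α) :
    ((((l.filter fun a => decide (Q a)).map f).filter fun b => decide (P b)).map F).sum =
      (l.map fun a => if Q a ∧ P (f a) then F (f a) else 0).sum := by
  rw [sum_filter_map]
  induction l with
  | nil => simp
  | cons a l ih =>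
    by_cases h : Q a
    · rw [List.filter_cons_of_pos (by simpa using h), List.map_cons, List.sum_cons, ih, List.map_cons,
        List.sum_cons]
      simp only [h, true_and]
    · rw [List.filter_cons_of_neg (by simpa using h), ih, List.map_cons, List.sum_cons,
        if_neg fun e => h e.1, zero_add]

theorem r9_of_reps [Finite G] {xs : List G} (h : Reps xs) : ∀ x ∈ xs.map dat, ∀ p a, p.Prime →
    x.1 = p ^ a → ∃ S : List En, S.Sublist (xs.map dat) ∧
      (∀ y ∈ S, x.1 ∣ y.1 ∧ x.1 < y.1 ∧ ¬ p ∣ y.1 / x.1 ∧ y.2.2 ∣ x.2.2 ∧ x.2.1 ∣ y.2.1) ∧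
      (∀ d, d ∣ x.2.2 → ¬ p ∣ d → d ∣ 1 + ((S.filter fun y => y.1 / x.1 ∣ d).map
        fun y => y.2.1 / x.2.1 * (x.2.2 / y.2.2)).sum) ∧
      (∀ q, q.Prime → q ≠ p → q ∣ x.2.2 → ¬ q * q ∣ x.2.2 →
        (S.filter fun y => y.1 = x.1 * q).length = 1) := by
  have := Fintype.ofFinite G
  rw [List.forall_mem_map]
  intro x hx p a hp ho
  change orderOf x = p ^ a at ho
  have hpos := orderOf_pos x
  have cop : ∀ {m}, ¬ p ∣ m → (orderOf x).Coprime m := fun hm =>
    ho ▸ Nat.Coprime.pow_left a ((Nat.Prime.coprime_iff_not_dvd hp).2 hm)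
  let Q : G → Prop := fun z => ∃ m, 1 < m ∧ ¬ p ∣ m ∧ orderOf z = orderOf x * m ∧ RC x (z ^ m)
  have mk : ∀ {y z : G}, Commute x y → y ≠ 1 → ¬ p ∣ orderOf y → RC z (x * y) →
      Q z ∧ orderOf z = orderOf x * orderOf y := fun {y z} c y1 hy e => by
    have e1 : orderOf z = orderOf x * orderOf y :=
      e.orderOf_eq.trans (c.orderOf_mul_eq_mul_orderOf_of_coprime (cop hy))
    refine ⟨⟨orderOf y, ?_, hy, e1, RC.trans ⟨orderOf y, (cop hy).symm, ?_⟩ (rc_pow e _).symm⟩, e1⟩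
    · have h1 := orderOf_pos y
      have h2 : orderOf y ≠ 1 := fun e => y1 (orderOf_eq_one_iff.1 e)
      omega
    · rw [c.mul_pow, pow_orderOf_eq_one, mul_one]
  refine ⟨(xs.filter fun z => decide (Q z)).map dat, List.filter_sublist.map _, ?_, ?_, ?_⟩
  · rw [List.forall_mem_map]
    intro z hz
    obtain ⟨m, h1, h2, h3, h4⟩ : Q z := of_decide_eq_true (List.mem_filter.1 hz).2
    have h5 := congrArg (fun t => t.2.1) h4.dat_eq
    simp only [dat] at h5 ⊢
    rw [h3, Nat.mul_div_cancel_left _ hpos]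
    exact ⟨dvd_mul_right _ _, lt_mul_of_one_lt_right hpos h1, h2, h4.cc_eq ▸ cc_dvd_pow z m,
      h5 ▸ ns_pow_dvd z m⟩
  · intro d hd hpd
    have h1 := KCP.frob (G := Cz x) hd
    let T : Finset G := univ.filter fun w => Commute x w ∧ (x⁻¹ * w) ^ d = 1 ∧ w ≠ x
    have h2 : Nat.card {y : Cz x // y ^ d = 1} = 1 + T.card := by
      rw [Nat.card_eq_fintype_card, Fintype.card_subtype, add_comm,
        ← card_insert_of_notMem (a := x) (by simp [T])]
      refine card_bij (fun y _ => x * y.1) (fun y hy => ?_)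
        (fun a _ b _ e => Subtype.ext (mul_left_cancel e)) fun w hw => ?_
      · have h3 : y.1 ^ d = 1 := congrArg Subtype.val (mem_filter.1 hy).2
        rw [mem_insert, or_iff_not_imp_left]
        exact fun e => mem_filter.2 ⟨mem_univ _, (Commute.refl x).mul_right (mem_Cz.1 y.2).symm,
          by rwa [inv_mul_cancel_left], e⟩
      · rcases mem_insert.1 hw with rfl | hw
        · exact ⟨1, by simp, by simp⟩
        · obtain ⟨-, c, e, -⟩ := mem_filter.1 hw
          exact ⟨⟨x⁻¹ * w, mem_Cz.2 ((Commute.refl x).inv_left.mul_left c.symm)⟩,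
            mem_filter.2 ⟨mem_univ _, Subtype.ext e⟩, mul_inv_cancel_left _ _⟩
    have h3 : ∀ w ∈ T, ∀ z, RC z w → Q z ∧ orderOf z / orderOf x ∣ d := fun w hw z e => by
      obtain ⟨-, c, e1, e2⟩ := mem_filter.1 hw
      have e3 := orderOf_dvd_of_pow_eq_one e1
      obtain ⟨e4, e5⟩ := mk (y := x⁻¹ * w) (z := z) ((Commute.refl x).inv_right.mul_right c)
        (fun e => e2 (inv_mul_eq_one.1 e).symm) (fun e => hpd (e.trans e3)) (by rwa [mul_inv_cancel_left])
      exact ⟨e4, by rwa [e5, Nat.mul_div_cancel_left _ hpos]⟩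
    have h4 : (1 : G) ∉ T := fun e => by
      obtain ⟨⟨m, e1, -, e2, -⟩, -⟩ := h3 1 e 1 (RC.refl 1)
      rw [orderOf_one] at e2
      have := Nat.eq_one_of_mul_eq_one_left e2.symm
      omega
    rw [h2] at h1
    rw [sum_filter_filter dat Q (fun y => y.1 / (dat x).1 ∣ d)]
    convert h1 using 2
    rw [← univ_inter T, ← filter_mem_eq_inter, card_filter, sum_reps _ h, if_neg h4, zero_add]
    refine congrArg _ (List.map_congr_left fun z _ => ?_)
    rw [← card_filter]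
    split_ifs with e
    · obtain ⟨⟨m, e1, e2, e3, e4⟩, e5⟩ := e
      simp only [dat] at e5 ⊢
      rw [e3, Nat.mul_div_cancel_left _ hpos] at e5
      rw [← fib_card (cop e2) e3 e4]
      refine congrArg _ (filter_congr fun w hw => ?_)
      have e6 := (mem_rc.1 hw).orderOf_eq
      simp only [T, mem_filter, mem_univ, true_and]
      refine and_congr_right fun c => ⟨fun e7 => ⟨?_, fun e8 => ?_⟩, fun e7 => ?_⟩
      · obtain ⟨k, rfl⟩ := e5
        rw [pow_mul, e7, one_pow]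
      · rw [e8, e3] at e6
        have := Nat.eq_of_mul_eq_mul_left hpos (e6.trans (mul_one _).symm)
        omega
      · have e8 := (mk (y := x⁻¹ * w) (z := w) ((Commute.refl x).inv_right.mul_right c)
          (fun e => e7.2 (inv_mul_eq_one.1 e).symm)
          (fun e => hpd (e.trans (orderOf_dvd_of_pow_eq_one e7.1)))
          (by rw [mul_inv_cancel_left]; exact RC.refl w)).2
        rw [← e6, e3] at e8
        rw [Nat.eq_of_mul_eq_mul_left hpos e8, pow_orderOf_eq_one]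
    · symm
      rw [card_eq_zero, filter_eq_empty_iff]
      exact fun w hw e1 => e (h3 w e1 z (mem_rc.1 hw))
  · intro q hq hqp h1 h2
    have hpq : ¬ p ∣ q := fun e => hqp ((Nat.prime_dvd_prime_iff_eq hp hq).1 e).symm
    have h3 : xs.Nodup := h.pw.imp fun {a b} hab (e : a = b) => hab (e ▸ RC.refl a)
    rw [List.filter_map, List.length_map, List.filter_filter,
      ← List.toFinset_card_of_nodup (h3.filter _), card_eq_one]
    obtain ⟨y, hy, e⟩ := exists_order_of_dvd (D := Cz x) hq h1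
    have c : Commute x y := (mem_Cz.1 hy).symm
    have y1 : y ≠ 1 := ne_one_of_order e hq.one_lt
    have h4 := mk c y1 (e ▸ hpq) (RC.refl _)
    obtain ⟨z, hz, e1⟩ := h.cover (x * y) (ne_one_of_order h4.2
      (e ▸ hq.one_lt.trans_le (Nat.le_mul_of_pos_left _ hpos)))
    have h5 := mk c y1 (e ▸ hpq) e1
    rw [e] at h5
    have h6 : ∀ w, Q w → orderOf w = orderOf x * q → RC x (w ^ q) := by
      rintro w ⟨m, -, -, e2, e3⟩ e4
      rwa [Nat.eq_of_mul_eq_mul_left hpos (e2.symm.trans e4)] at e3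
    refine ⟨z, eq_singleton_iff_unique_mem.2 ⟨?_, fun w hw => ?_⟩⟩
    · rw [List.mem_toFinset, List.mem_filter, Bool.and_eq_true]
      exact ⟨hz, decide_eq_true h5.2, decide_eq_true h5.1⟩
    · rw [List.mem_toFinset, List.mem_filter, Bool.and_eq_true] at hw
      have e2 : orderOf w = orderOf x * q := of_decide_eq_true hw.2.1
      have e3 := h6 w (of_decide_eq_true hw.2.2) e2
      refine eq_of_rc h hw.1 hz (KCP.sq hq ?_ e2 h5.2 (e3.symm.trans (h6 z h5.1 h5.2)) ?_)
      · exact (Nat.Prime.coprime_iff_not_dvd hq).1 (cop hpq).symm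
      · rw [← e3.cc_eq, sq]; exact h2

theorem three_primes [Finite G] [IsSimpleGroup G] (hG : ¬ IsMulCommutative G) :
    ∀ p q a b : ℕ, p.Prime → q.Prime → Nat.card G ≠ p ^ a * q ^ b := by
  intro p q a b hp hq e
  have key : ∀ x : G, x ≠ 1 → ¬ Nat.card G / cc x ∣ q ^ b := fun x hx h => by
    obtain ⟨c, -, hc⟩ := (Nat.dvd_prime_pow hq).1 h
    exact KCP.not_primePow hG hx hq (a := c) (by rw [← hc, Nat.mul_div_cancel' (cc_dvd x)])
  rcases a.eq_zero_or_pos with rfl | ha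
  · obtain ⟨x, hx⟩ := exists_ne (1 : G)
    rw [pow_zero, one_mul] at e
    exact key x hx (e ▸ Nat.div_dvd_of_dvd (cc_dvd x))
  · obtain ⟨y, e1, e2⟩ := Nine.exists_central_elt (G := G) hp (e ▸ (dvd_pow_self p ha.ne').mul_right _)
    refine key y (ne_one_of_order e1 hp.one_lt) ?_
    refine Nat.Coprime.dvd_of_dvd_mul_left (m := p ^ a) ?_ ((Nat.div_dvd_of_dvd (cc_dvd y)).trans e.dvd)
    rw [index_cent]
    exact (Nat.Coprime.pow_left a ((Nat.Prime.coprime_iff_not_dvd hp).2 e2)).symm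

end Cfsg.Agent.KCG
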