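import Cfsg.Agent.Lib.KC.Leaf
import Cfsg.Agent.Lib.KCP.Pure
import Mathlib.RingTheory.ZMod.UnitsCyclic

/-! The class data of a finite simple group satisfy the axioms of the search. -/

set_option autoImplicit false
set_option linter.unusedSectionVars false

open Finset Classical

namespace Cfsg.Agent.KCG
open KC J3T

variable {G : Type*} [Group G]

theorem rc_one {x : G} (h : RC x 1) : x = 1 := by
  have := h.orderOf_eq
  rwa [orderOf_one, orderOf_eq_one_iff] at this

theorem sum_pw [Fintype G] {M : Type*} [AddCommMonoid M] (F : G → M) {xs : List G}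
    (h : xs.Pairwise fun x y => ¬ RC x y) :
    ∑ y ∈ univ.filter (fun y => ∃ x ∈ xs, RC x y), F y = (xs.map fun x => ∑ y ∈ rc x, F y).sum := by
  induction xs with
  | nil => simp
  | cons a l ih =>
    rw [List.pairwise_cons] at h
    rw [List.map_cons, List.sum_cons, ← ih h.2, ← sum_union]
    · refine sum_congr ?_ fun _ _ => rfl
      ext y
      simp [mem_rc]
    · rw [disjoint_left]
      intro y h1 h2
      obtain ⟨x, hx, h3⟩ := (mem_filter.1 h2).2
      exact h.1 x hx ((mem_rc.1 h1).trans h3.symm)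

theorem sum_reps [Fintype G] {M : Type*} [AddCommMonoid M] (F : G → M) {xs : List G} (h : Reps xs) :
    ∑ y, F y = F 1 + (xs.map fun x => ∑ y ∈ rc x, F y).sum := by
  rw [← sum_pw F h.pw, ← add_sum_erase _ _ (mem_univ 1)]
  congr 1
  refine sum_congr ?_ fun _ _ => rfl
  ext y
  simp only [mem_erase, mem_univ, and_true, mem_filter, true_and]
  exact ⟨h.cover y, fun ⟨x, hx, e⟩ e1 => h.ne x hx (rc_one (e1 ▸ e))⟩

theorem tot_div [Finite G] (x : G) : Nat.totient (orderOf x) / ns x = ee x := by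
  rw [← ns_mul, Nat.mul_div_cancel_left _ (ns_pos x)]

theorem card_rc' [Fintype G] (x : G) : (rc x).card = ns x * (Nat.card G / cc x) := by
  refine Nat.eq_of_mul_eq_mul_right (cc_pos x) ?_
  rw [card_rc, mul_assoc, Nat.div_mul_cancel (cc_dvd x)]

theorem index_cent [Finite G] (x : G) :
    Nat.card G / cc x = (Subgroup.centralizer ({x} : Set G)).index := by
  rw [← (Subgroup.centralizer ({x} : Set G)).card_mul_index]
  exact Nat.mul_div_cancel_left _ (cc_pos x)

theorem cc_one : cc (1 : G) = Nat.card G := by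
  rw [cc, Subgroup.centralizer_eq_top_iff_subset.2 (by simp), Subgroup.card_top]

theorem exists_order [Finite G] {x : G} {d : ℕ} (h : d ∣ orderOf x) :
    orderOf (x ^ (orderOf x / d)) = d := orderOf_pow_orderOf_div (orderOf_pos x).ne' h

theorem ne_one_of_order {x : G} {d : ℕ} (h : orderOf x = d) (hd : 1 < d) : x ≠ 1 := fun e => by
  rw [e, orderOf_one] at h
  omega

theorem exists_reps [Finite G] : ∃ xs : List G, Reps xs ∧
    xs.Pairwise fun x y => le' (cc x) (orderOf x) (ns x) (dat y) := by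
  have := Fintype.ofFinite G
  let s : Setoid G := ⟨RC, RC.refl, RC.symm, RC.trans⟩
  let l : List G := ((univ : Finset (Quotient s)).erase (Quotient.mk s 1)).toList.map Quotient.out
  have h : Reps l := by
    refine ⟨fun x hx e => ?_, ?_, fun y hy => ⟨(Quotient.mk s y).out, ?_, Quotient.mk_out (s := s) y⟩⟩
    · obtain ⟨q, hq, rfl⟩ := List.mem_map.1 hx
      exact (mem_erase.1 (mem_toList.1 hq)).1 (by rw [← e, Quotient.out_eq])
    · rw [List.pairwise_map]
      exact (nodup_toList _).imp fun {a b} hab e => hab (Quotient.out_equiv_out.1 e)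
    · exact List.mem_map.2 ⟨_, mem_toList.2 (mem_erase.2
        ⟨fun e => hy (rc_one (Quotient.exact e)), mem_univ _⟩), rfl⟩
  let r : G → G → Bool := fun x y => decide (le' (cc x) (orderOf x) (ns x) (dat y))
  have hp := List.mergeSort_perm l r
  refine ⟨l.mergeSort r, ⟨fun x hx => h.ne x (hp.mem_iff.1 hx),
    (hp.pairwise_iff fun {a b} hab e => hab e.symm).2 h.pw,
    fun y hy => (h.cover y hy).imp fun x hx => ⟨hp.mem_iff.2 hx.1, hx.2⟩⟩, ?_⟩
  refine (List.pairwise_mergeSort (le := r) (fun a b c => ?_) (fun a b => ?_) l).imp fun e => of_decide_eq_true e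
  · intro h1 h2
    have h3 := of_decide_eq_true h1
    have h4 := of_decide_eq_true h2
    refine decide_eq_true ?_
    simp only [le', dat] at h3 h4 ⊢
    omega
  · rw [Bool.or_eq_true, decide_eq_true_iff, decide_eq_true_iff]
    simp only [le', dat]
    omega

theorem rc_of_prime [Finite G] {x y : G} (hp : (orderOf x).Prime) (hy : orderOf y = orderOf x)
    (h : ¬ orderOf x * orderOf x ∣ Nat.card G) : RC x y := by
  have := Fintype.ofFinite G
  obtain ⟨g, hg⟩ := conj_into (A := Subgroup.zpowers x) hp (fun e => h (by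
    rw [← (Subgroup.zpowers x).card_mul_index, Nat.card_zpowers]
    exact Nat.mul_dvd_mul_left _ e)) (c := y) (k := 1) (by rw [pow_one, ← hy, pow_orderOf_eq_one])
  obtain ⟨k, hk, e⟩ := exists_pow_of_mem_zpowers hg
  refine ⟨k, ((Nat.Prime.coprime_iff_not_dvd hp).2 fun e1 => ?_).symm,
    e ▸ (isConj_iff.2 ⟨g, rfl⟩).symm⟩
  have e2 := orderOf_conj' g y
  rw [← e, orderOf_dvd_iff_pow_eq_one.1 e1, orderOf_one, hy] at e2
  exact hp.one_lt.ne e2

theorem exists_aut [Finite G] {x : G} {p a d : ℕ} (hp : p.Prime) (hp2 : p ≠ 2) (hx : orderOf x = p ^ a)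
    (hd : d ∣ ee x) : ∃ y : G, orderOf y = d := by
  obtain ⟨f, -, h1, -⟩ := exists_hom x
  have : IsCyclic (ZMod (orderOf x))ˣ := hx ▸ ZMod.isCyclic_units_of_prime_pow p hp hp2 a
  obtain ⟨⟨u, g, rfl⟩, hu⟩ := IsCyclic.exists_ofOrder_eq_natCard (α := f.range)
  rw [h1, ← Subgroup.orderOf_coe] at hu
  have h2 : d ∣ orderOf (g : G) := by
    rw [Subgroup.orderOf_coe]
    exact hd.trans (hu ▸ orderOf_map_dvd f g)
  exact ⟨_, exists_order h2⟩

theorem exists_pr [Finite G] {x : G} {p : ℕ} (hp : p.Prime) (h1 : p ∣ cc x) (h2 : ¬ p ∣ orderOf x) :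
    ∃ z : G, orderOf z = orderOf x * p ∧ cc z ∣ cc x := by
  have := Fintype.ofFinite G
  obtain ⟨y, hy, e⟩ := exists_order_of_dvd (D := Cz x) hp h1
  have hc : Commute x y := (mem_Cz.1 hy).symm
  have h3 : p.Coprime (orderOf x) := (Nat.Prime.coprime_iff_not_dvd hp).2 h2
  refine ⟨x * y, by rw [hc.orderOf_mul_eq_mul_orderOf_of_coprime (e ▸ h3.symm), e], cc_dvd_of_mem ?_⟩
  have h4 : (x * y) ^ p = x ^ p := by rw [hc.mul_pow, ← e, pow_orderOf_eq_one, mul_one]
  have h5 : x ∈ Subgroup.zpowers ((x * y) ^ p) := by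
    rw [h4, zpowers_pow_coprime h3]
    exact Subgroup.mem_zpowers x
  exact Subgroup.zpowers_le.2 (Subgroup.npow_mem_zpowers _ p) h5

variable [Finite G] [IsSimpleGroup G] (hG : ¬ IsMulCommutative G)
include hG

theorem six_le {x : G} (hx : x ≠ 1) : 6 * cc x ≤ Nat.card G := by
  obtain ⟨m, hm⟩ := cc_dvd x
  have h0 : m ≠ 0 := fun e => Nat.card_pos.ne' (by rw [hm, e, mul_zero])
  have h1 := KCP.not_primePow hG hx (p := 2) (a := 0) Nat.prime_two
  have h2 := KCP.not_primePow hG hx (p := 2) (a := 1) Nat.prime_two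
  have h3 := KCP.not_primePow hG hx (p := 3) (a := 1) Nat.prime_three
  have h4 := KCP.not_primePow hG hx (p := 2) (a := 2) Nat.prime_two
  have h5 := KCP.not_primePow hG hx (p := 5) (a := 1) Nat.prime_five
  have h6 : 6 ≤ m := by
    by_contra hc
    have : m = 1 ∨ m = 2 ∨ m = 3 ∨ m = 4 ∨ m = 5 := by omega
    rcases this with rfl | rfl | rfl | rfl | rfl <;> contradiction
  rw [hm, mul_comm]
  exact Nat.mul_le_mul_left _ h6

theorem cap {x : G} (hx : x ≠ 1) {p a : ℕ} (hp : p.Prime) (ho : orderOf x = p ^ a)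
    (h : ¬ p * p ∣ cc x) : ¬ p * p ∣ Nat.card G ∧ p ≠ 2 ∧ ee x ≠ 1 := by
  have := Fact.mk hp
  obtain ⟨P, hP⟩ := (IsPGroup.of_card ((Nat.card_zpowers x).trans ho)).exists_le_sylow
  have hxP : x ∈ (P : Subgroup G) := hP (Subgroup.mem_zpowers x)
  have hP0 : (P : Subgroup G) ≠ ⊥ := fun e => hx (by rwa [e, Subgroup.mem_bot] at hxP)
  obtain ⟨z, hz, hzo, hc⟩ := SL2.exists_central_of_isPGroup P.2 hP0
  obtain ⟨j, hj⟩ := (P.isPGroup'.to_le
    (inf_le_left : (P : Subgroup G) ⊓ Subgroup.centralizer {x} ≤ P)).exists_card_eq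
  have h1 : j ≤ 1 := by
    by_contra hc
    refine h (Dvd.dvd.trans ?_ (Subgroup.card_dvd_of_le
      (inf_le_right : (P : Subgroup G) ⊓ Subgroup.centralizer {x} ≤ _)))
    rw [hj, ← sq]
    exact pow_dvd_pow _ (by omega)
  have h2 : Nat.card ((P : Subgroup G) ⊓ Subgroup.centralizer {x} : Subgroup G) ≤ p := by
    rw [hj]
    exact (Nat.pow_le_pow_right hp.pos h1).trans (pow_one p).le
  have h3 : Subgroup.zpowers z = (P : Subgroup G) ⊓ Subgroup.centralizer {x} :=
    Subgroup.eq_of_le_of_card_ge (Subgroup.zpowers_le.2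
      ⟨hz, Subgroup.mem_centralizer_singleton_iff.2 (hc x hxP).symm⟩) (by rwa [Nat.card_zpowers, hzo])
  have h4 : x ∈ Subgroup.zpowers z := h3 ▸ ⟨hxP, Subgroup.mem_centralizer_singleton_iff.2 rfl⟩
  have h5 : (P : Subgroup G) ≤ Subgroup.centralizer {x} := fun y hy =>
    cent_le_of_mem h4 (Subgroup.mem_centralizer_singleton_iff.2 (hc y hy))
  rw [inf_eq_left.2 h5] at h3
  have h6 : Nat.card (P : Subgroup G) = p := by rw [← h3, Nat.card_zpowers, hzo]
  have h7 : orderOf x = p := ((Nat.dvd_prime hp).1 (h6 ▸ Subgroup.orderOf_dvd_natCard _ hxP)).resolve_left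
    fun e => hx (orderOf_eq_one_iff.1 e)
  have h8 : Subgroup.zpowers x = P := Subgroup.eq_of_le_of_card_ge hP (by rw [Nat.card_zpowers, h6, h7])
  have h9 : ee x ≠ 1 := fun e => by
    obtain ⟨g, g1, g2⟩ := Nine.exists_not_cent hG P (h6 ▸ Subgroup.card_subgroup_dvd_card _)
    have e1 := ee_mul x
    rw [e, one_mul] at e1
    have e2 := Subgroup.eq_of_le_of_card_ge (cent_le_norm x) e1.ge
    have e3 : g ∈ Cz x := by rw [e2, h8]; exact g1
    refine g2 fun y hy => ?_
    exact Subgroup.mem_centralizer_iff.1 (cent_le_of_mem (h8 ▸ hy) e3) y rfl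
  refine ⟨fun e => ?_, fun e => h9 ?_, h9⟩
  · have := P.pow_dvd_card_of_pow_dvd_card (n := 2) (by rwa [sq])
    rw [h6, sq] at this
    exact hp.one_lt.ne' (Nat.eq_one_of_dvd_one (Nat.dvd_of_mul_dvd_mul_left hp.pos (by rwa [mul_one])))
  · have := ee_dvd x
    rwa [h7, e, Nat.totient_two, Nat.dvd_one] at this

theorem three_le {x : G} (hx : x ≠ 1) : 3 ≤ cc x := by
  by_contra hc
  have h1 := Nat.le_of_dvd (cc_pos x) (orderOf_dvd_cc x)
  have h2 : orderOf x ≠ 1 := fun e => hx (orderOf_eq_one_iff.1 e)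
  have h3 := orderOf_pos x
  exact (cap hG hx Nat.prime_two (a := 1) (by omega)
    fun e => by have := Nat.le_of_dvd (cc_pos x) e; omega).2.1 rfl

theorem ax_of_reps {xs : List G} (h : Reps xs)
    (hs : xs.Pairwise fun x y => le' (cc x) (orderOf x) (ns x) (dat y)) :
    Ax (Nat.card (ConjClasses G) - 1) (Nat.card G) (xs.map dat) := by
  have := Fintype.ofFinite G
  have rep : ∀ y : G, 1 < orderOf y → ∃ z ∈ xs.map dat, z.1 = orderOf y ∧ z.2.2 = cc y := fun y hy => by
    obtain ⟨x, hx, e⟩ := h.cover y (ne_one_of_order rfl hy)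
    exact ⟨dat x, List.mem_map_of_mem hx, e.orderOf_eq, e.cc_eq⟩
  have rep' : ∀ {d}, 1 < d → (∃ y : G, orderOf y = d) → ∃ z ∈ xs.map dat, z.1 = d := by
    rintro _ hd ⟨y, rfl⟩
    exact (rep y hd).imp fun z hz => ⟨hz.1, hz.2.1⟩
  refine ⟨?_, Nat.card_pos, ?_, ?_, ?_, ?_, ?_, ?_, ?_, ?_, ?_, List.pairwise_map.2 hs⟩
  · have h1 : Nat.card (ConjClasses G) * Nat.card G = ∑ y : G, cc y := SL2.card_conjClasses_mul_card
    have h2 : cc (1 : G) = Nat.card G := cc_one
    have h3 : ∀ x : G, ∑ y ∈ rc x, cc y = ns x * Nat.card G := fun x => by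
      rw [← card_rc, sum_const_nat fun y hy => (mem_rc.1 hy).cc_eq.symm]
    rw [sum_reps _ h, h2, funext h3, List.sum_map_mul_right, ← one_add_mul] at h1
    rw [Nat.eq_of_mul_eq_mul_right Nat.card_pos h1, sumS, List.map_map, Nat.add_sub_cancel_left]
    rfl
  · have h0 : (Nat.card G : ℚ) ≠ 0 := Nat.cast_ne_zero.2 Nat.card_pos.ne'
    have h1 := sum_reps (fun _ => (1 / Nat.card G : ℚ)) h
    have h3 : ∀ x : G, ∑ y ∈ rc x, (1 / Nat.card G : ℚ) = ns x / cc x := fun x => by
      have e : ((rc x).card : ℚ) * cc x = ns x * Nat.card G := by exact_mod_cast card_rc x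
      have e0 : (cc x : ℚ) ≠ 0 := Nat.cast_ne_zero.2 (cc_pos x).ne'
      rw [sum_const, nsmul_eq_mul]
      field_simp
      exact e.trans (mul_comm _ _)
    rw [funext h3, sum_const, card_univ, ← Nat.card_eq_fintype_card, nsmul_eq_mul,
      mul_one_div_cancel h0, add_comm] at h1
    rw [mass, List.map_map]
    exact h1
  · rw [List.forall_mem_map]
    intro x hx
    have h1 : orderOf x ≠ 1 := fun e => h.ne x hx (orderOf_eq_one_iff.1 e)
    have h2 := orderOf_pos x
    refine ⟨by simp only [dat]; omega, ns_pos x, three_le hG (h.ne x hx), orderOf_dvd_cc x,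
      Dvd.intro _ (ns_mul x), ?_, six_le hG (h.ne x hx)⟩
    simp only [dat]
    rw [tot_div, mul_comm, ee_mul]
    exact nn_dvd x
  · rw [List.forall_mem_map]
    intro x _ d h1 h2
    obtain ⟨z, hz, e1, e2⟩ := rep _ ((exists_order h2).symm ▸ h1)
    exact ⟨z, hz, e1.trans (exists_order h2), e2 ▸ cc_dvd_pow x _⟩
  · rw [List.forall_mem_map]
    intro x _ p hp h1 h2
    obtain ⟨y, e1, e2⟩ := exists_pr hp h1 h2
    obtain ⟨z, hz, e3, e4⟩ := rep y (by
      rw [e1]; exact hp.one_lt.trans_le (Nat.le_mul_of_pos_left _ (orderOf_pos x)))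
    exact ⟨z, hz, e3.trans e1, e4 ▸ e2⟩
  · rw [List.forall_mem_map]
    intro x _ p a hp hp2 h1 d h2 h3
    exact rep' h2 (exists_aut hp hp2 h1 (tot_div x ▸ h3))
  · rw [List.forall_mem_map]
    intro x hx p a hp h1 h2
    have := cap hG (h.ne x hx) hp h1 h2
    rwa [← tot_div] at this
  · rw [List.pairwise_map]
    exact h.pw.imp fun {a b} hab h1 h2 => by_contra fun e => hab (rc_of_prime h1 h2 e)
  · intro p hp h1
    obtain ⟨y, e1, e2⟩ := Nine.exists_central_elt hp h1
    obtain ⟨z, hz, e3, e4⟩ := rep y (e1 ▸ hp.one_lt)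
    exact ⟨z, hz, e3.trans e1, by rwa [e4, index_cent]⟩
  · rw [List.forall_mem_map]
    intro x hx a h1 h2 h3 j h4 h5
    obtain ⟨n, m, hm, e⟩ := Nat.exists_eq_two_pow_mul_odd (Nat.card_pos (α := G)).ne'
    have key : ∀ i, 2 ^ i ∣ Nat.card G → i ≤ n := fun i hi => by
      rw [e] at hi
      exact (Nat.pow_dvd_pow_iff_le_right one_lt_two).1
        ((Nat.Coprime.pow_left i hm.coprime_two_left).dvd_of_dvd_mul_right hi)
    have h6 : a ≠ 0 := fun e => h.ne x hx (orderOf_eq_one_iff.1 (by rw [e, pow_zero] at h1; exact h1))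
    obtain ⟨y, hy⟩ := KCP.t2 h1 (by omega) h2 e hm (key 3 h3)
    have h7 := key _ h5
    exact rep' (Nat.one_lt_two_pow (by omega))
      ⟨_, exists_order (x := y) (hy ▸ pow_dvd_pow 2 (by omega))⟩

theorem exists_ax : ∃ xs : List G, KC.Reps xs ∧
    KC.Ax (Nat.card (ConjClasses G) - 1) (Nat.card G) (xs.map KC.dat) := by
  obtain ⟨xs, h, hs⟩ := exists_reps (G := G)
  exact ⟨xs, h, ax_of_reps hG h hs⟩

end Cfsg.Agent.KCG
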