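import Cfsg.Agent.Lib.KCG.A
import Cfsg.Agent.Lib.KCP.Frob

/-! The class data of a finite simple group satisfy the conditions used at the leaves. -/

set_option autoImplicit false
set_option linter.unusedSectionVars false

open Finset Classical

namespace Cfsg.Agent.KCG
open KC J3T

variable {G : Type*} [Group G]

theorem sum_filter_map {α β : Type*} (f : α → β) (P : β → Prop) [DecidablePred P] (F : β → ℕ)
    (l : List α) : (((l.map f).filter fun b => decide (P b)).map F).sum =
      (l.map fun a => if P (f a) then F (f a) else 0).sum := by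
  induction l with
  | nil => simp
  | cons a l ih =>
    by_cases h : P (f a)
    · rw [List.map_cons, List.filter_cons_of_pos (by simpa using h), List.map_cons, List.sum_cons,
        List.map_cons, List.sum_cons, ih, if_pos h]
    · rw [List.map_cons, List.filter_cons_of_neg (by simpa using h), List.map_cons, List.sum_cons,
        ih, if_neg h, zero_add]

theorem le_foldr_max {l : List ℕ} {a : ℕ} (h : a ∈ l) : a ≤ l.foldr max 1 := by
  induction l with
  | nil => simp at h
  | cons b l ih =>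
    rcases List.mem_cons.1 h with rfl | h
    · exact le_max_left _ _
    · exact (ih h).trans (le_max_right _ _)

theorem one_le_foldr_max (l : List ℕ) : 1 ≤ l.foldr max 1 := by
  induction l with
  | nil => exact le_rfl
  | cons b l ih => exact ih.trans (le_max_right _ _)

theorem RC.ee_eq [Finite G] {x y : G} (h : RC x y) : ee x = ee y := by rw [ee, ee, h.cc_eq, h.nn_eq]

theorem two_ns_dvd [Finite G] (x : G) : 2 * ns x ∣ Nat.totient (orderOf x) ↔ 2 ∣ ee x := by
  rw [← ns_mul, mul_comm 2, Nat.mul_dvd_mul_iff_left (ns_pos x)]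

section
variable [Fintype G]

/-- counting the elements whose order has a given property -/
theorem card_order {xs : List G} (h : Reps xs) (P : ℕ → Prop) [DecidablePred P] :
    (univ.filter fun y : G => P (orderOf y)).card = (if P 1 then 1 else 0) +
      (xs.map fun x => if P (orderOf x) then ns x * (Nat.card G / cc x) else 0).sum := by
  rw [card_filter, sum_reps _ h, orderOf_one]
  congr 2
  refine List.map_congr_left fun x _ => ?_
  rw [sum_const_nat fun y hy => by rw [← (mem_rc.1 hy).orderOf_eq], card_rc']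
  split_ifs <;> simp

theorem nI_eq {xs : List G} (h : Reps xs) : nI (Nat.card G) (xs.map dat) = (J3T.Inv G).card := by
  have h1 : J3T.Inv G = univ.filter fun y : G => orderOf y = 2 := by
    ext y
    rw [mem_filter]
    exact ⟨fun e => ⟨mem_univ _, J3T.Inv.order e⟩, fun e => J3T.Inv.of_order e.2⟩
  rw [h1, card_order h (· = 2), if_neg (by omega), zero_add, nI, sum_filter_map]
  congr 1
  refine List.map_congr_left fun x _ => ?_
  by_cases e : orderOf x = 2
  · have := ns_mul x
    rw [e, Nat.totient_two] at this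
    rw [if_pos (show (dat x).1 = 2 from e), if_pos e, Nat.eq_one_of_mul_eq_one_right this, one_mul]
    rfl
  · rw [if_neg (show ¬ (dat x).1 = 2 from e), if_neg e]

/-- number of ways to write an element as a product of two involutions -/
noncomputable def np (y : G) : ℕ := ((J3T.Inv G).filter fun s => s * y ∈ J3T.Inv G).card

theorem sum_np : ∑ y : G, np y = (J3T.Inv G).card * (J3T.Inv G).card := by
  simp only [np, card_filter]
  rw [sum_comm]
  refine sum_const_nat fun s _ => ?_
  rw [← card_filter]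
  exact card_bij (fun y _ => s * y) (fun y hy => (mem_filter.1 hy).2)
    (fun a _ b _ e => mul_left_cancel e)
    fun t ht => ⟨s⁻¹ * t, mem_filter.2 ⟨mem_univ _, by rwa [mul_inv_cancel_left]⟩,
      mul_inv_cancel_left _ _⟩

theorem np_one : np (1 : G) = (J3T.Inv G).card := by
  rw [np, filter_true_of_mem fun s hs => by rwa [mul_one]]

theorem inverts_of_mem {s y : G} (h : s * y ∈ J3T.Inv G) : s * y * s = y⁻¹ :=
  eq_inv_of_mul_eq_one_left (by rw [mul_assoc]; exact (mem_Inv.1 h).1)

theorem np_le (y : G) : np y ≤ cc y := by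
  rcases ((J3T.Inv G).filter fun s => s * y ∈ J3T.Inv G).eq_empty_or_nonempty with e | ⟨t, ht⟩
  · rw [np, e, card_empty]; exact Nat.zero_le _
  rw [cc, ← card_fs]
  refine card_le_card_of_injOn (fun s => t * s) (fun s hs => ?_) fun a _ b _ e => mul_left_cancel e
  obtain ⟨s1, s2⟩ := mem_filter.1 hs
  obtain ⟨t1, t2⟩ := mem_filter.1 ht
  rw [mem_coe, mem_fs, mem_Cz', mul_inv_rev, J3T.Inv.inv s1, J3T.Inv.inv t1]
  calc t * s * y * (s * t) = t * (s * y * s) * t := by group
    _ = (t⁻¹ * y * t⁻¹)⁻¹ := by rw [inverts_of_mem s2]; group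
    _ = y := by rw [J3T.Inv.inv t1, inverts_of_mem t2, inv_inv]

theorem np_real {y : G} (hy : y ≠ 1) (h : np y ≠ 0) : orderOf y = 2 ∨ 2 ∣ ee y := by
  obtain ⟨s, hs⟩ := card_ne_zero.1 h
  obtain ⟨s1, s2⟩ := mem_filter.1 hs
  have h1 : s * y * s⁻¹ = y⁻¹ := by rw [J3T.Inv.inv s1, inverts_of_mem s2]
  refine or_iff_not_imp_left.2 fun h2 => ?_
  obtain ⟨f, -, e1, e2⟩ := exists_hom y
  have hN : s ∈ Subgroup.normalizer (Subgroup.zpowers y : Set G) :=
    mem_norm_iff.2 (h1 ▸ inv_mem (Subgroup.mem_zpowers y))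
  have h3 : orderOf (f ⟨s, hN⟩) = 2 := by
    refine orderOf_eq_prime ?_ fun e => h2 (orderOf_eq_prime ?_ hy)
    · rw [← map_pow, show (⟨s, hN⟩ : Subgroup.normalizer (Subgroup.zpowers y : Set G)) ^ 2 = 1 from
        Subtype.ext (by rw [sq]; exact (mem_Inv.1 s1).1), map_one]
    · have := mem_Cz'.1 ((e2 _).1 e)
      rw [h1] at this
      rw [sq]
      nth_rewrite 1 [← this]
      exact inv_mul_cancel y
  rw [← e1, ← h3]
  exact Subgroup.orderOf_dvd_natCard _ ⟨_, rfl⟩

theorem exists_inverter {y : G} (hp : IsPrimePow (orderOf y)) (hc : ¬ 2 ∣ cc y) (he : 2 ∣ ee y) :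
    ∃ s ∈ J3T.Inv G, s * y * s = y⁻¹ := by
  obtain ⟨p, a, hp, ha, ho⟩ := (isPrimePow_nat_iff _).1 hp
  obtain ⟨s, hs, s2⟩ := exists_order_of_dvd (D := Subgroup.normalizer (Subgroup.zpowers y : Set G))
    Nat.prime_two (he.trans (Dvd.intro _ (ee_mul y)))
  have s1 := J3T.Inv.of_order s2
  refine ⟨s, s1, ?_⟩
  obtain ⟨k, hk⟩ := Subgroup.mem_zpowers_iff.1 (mem_norm_iff.1 hs)
  have h1 : y ^ (k * k) = y ^ (1 : ℤ) := by
    rw [zpow_mul, hk, conj_zpow, hk, zpow_one, ← mul_assoc, ← mul_assoc, (mem_Inv.1 s1).1, one_mul,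
      mul_assoc, ← mul_inv_rev, (mem_Inv.1 s1).1, inv_one, mul_one]
  rw [zpow_eq_zpow_iff_modEq, ← ho] at h1
  have h2 : (p : ℤ) ^ a ∣ (k - 1) * (k + 1) := by
    have := h1.symm.dvd
    rw [Nat.cast_pow] at this
    convert this using 1
    ring
  have hp' := Nat.prime_iff_prime_int.1 hp
  by_cases h3 : (p : ℤ) ∣ k - 1
  · exfalso
    by_cases h4 : (p : ℤ) ∣ k + 1
    · have h5 : (p : ℤ) ∣ 2 := by simpa using dvd_sub h4 h3
      have h6 : p = 2 := (Nat.prime_dvd_prime_iff_eq hp Nat.prime_two).1 (by exact_mod_cast h5)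
      exact hc (Dvd.dvd.trans (by rw [← ho, h6]; exact dvd_pow_self 2 (by omega)) (orderOf_dvd_cc y))
    · have h5 := hp'.pow_dvd_of_dvd_mul_right a h4 h2
      have h6 : y ^ k = y ^ (1 : ℤ) := by
        rw [zpow_eq_zpow_iff_modEq, ← ho, Nat.cast_pow]
        exact (Int.modEq_iff_dvd.2 h5).symm
      rw [hk, zpow_one] at h6
      exact hc (s2 ▸ Subgroup.orderOf_dvd_natCard _ (mem_Cz'.2 h6))
  · have h5 := hp'.pow_dvd_of_dvd_mul_left a h3 h2
    have h6 : y ^ k = y ^ (-1 : ℤ) := by
      rw [zpow_eq_zpow_iff_modEq, ← ho, Nat.cast_pow]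
      exact (Int.modEq_iff_dvd.2 (by rwa [sub_neg_eq_add])).symm
    rwa [hk, zpow_neg_one, J3T.Inv.inv s1] at h6

theorem np_ge {xs : List G} (h : Reps xs) {y : G} (hp : IsPrimePow (orderOf y)) (hc : ¬ 2 ∣ cc y)
    (he : 2 ∣ ee y) : cc y ≤ np y * mg2 (xs.map dat) (cc y) := by
  obtain ⟨s, s1, s2⟩ := exists_inverter hp hc he
  have h1 : ninv y ≤ np y := card_le_card fun t ht => by
    obtain ⟨t1, t2⟩ := mem_filter.1 ht
    refine mem_filter.2 ⟨t1, mem_Inv.2 ⟨by rw [← mul_assoc, t2, inv_mul_cancel], fun e => hc ?_⟩⟩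
    refine Dvd.dvd.trans ?_ (orderOf_dvd_cc y)
    rw [eq_inv_of_mul_eq_one_right e, orderOf_inv, J3T.Inv.order t1]
  have h2 := ninv_mul (Nat.odd_iff.2 (Nat.two_dvd_ne_zero.1 hc)) s1 s2
  obtain ⟨x, hx, e⟩ := h.cover s (mem_Inv.1 s1).2
  have h3 : Nat.card (Cz y ⊓ Cz s : Subgroup G) ≤ mg2 (xs.map dat) (cc y) := by
    refine (Nat.le_of_dvd (Nat.gcd_pos_of_pos_left _ (cc_pos y)) (Nat.dvd_gcd
      (Subgroup.card_dvd_of_le inf_le_left) (Subgroup.card_dvd_of_le inf_le_right))).trans
      (le_foldr_max (List.mem_map.2 ⟨dat x, List.mem_filter.2 ⟨List.mem_map_of_mem hx, ?_⟩, ?_⟩))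
    · exact decide_eq_true (e.orderOf_eq.trans (J3T.Inv.order s1))
    · exact congrArg _ e.cc_eq
  calc cc y = _ := h2.symm
    _ ≤ _ := Nat.mul_le_mul h1 h3

end

theorem eq_of_rc [Finite G] {xs : List G} (h : Reps xs) {x y : G} (hx : x ∈ xs) (hy : y ∈ xs)
    (e : RC x y) : x = y := by
  by_contra hn
  have : Std.Symm fun x y : G => ¬ RC x y := ⟨fun _ _ h e => h e.symm⟩
  exact h.pw.forall hx hy hn e

theorem length_filter {xs : List G} (h : Reps xs) (P : En → Bool) :
    ((xs.map dat).filter P).length = (xs.toFinset.filter fun x => P (dat x)).card := by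
  have h1 : xs.Nodup := h.pw.imp fun {a b} hab (e : a = b) => hab (e ▸ RC.refl a)
  rw [List.filter_map, List.length_map, ← List.toFinset_card_of_nodup (h1.filter _),
    List.toFinset_filter]
  rfl

variable [Finite G] [IsSimpleGroup G] (hG : ¬ IsMulCommutative G)
include hG

theorem two_mul_dvd {H : Subgroup G} (hH : H ≠ ⊤) : 2 * Nat.card G ∣ H.index.factorial := by
  have := Fintype.ofFinite (G ⧸ H)
  have : Nontrivial (G ⧸ H) := by
    rw [← Finite.one_lt_card_iff_nontrivial, ← Subgroup.index_eq_card]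
    exact Subgroup.one_lt_index_of_ne_top hH
  have h1 : Function.Injective (MulAction.toPermHom G (G ⧸ H)) := by
    rw [← MonoidHom.ker_eq_bot_iff, ← Subgroup.normalCore_eq_ker]
    exact (IsSimpleGroup.eq_bot_or_eq_top_of_normal _ inferInstance).resolve_right fun e =>
      hH (top_le_iff.1 (e ▸ H.normalCore_le))
  have h2 : ∀ g, MulAction.toPermHom G (G ⧸ H) g ∈ alternatingGroup (G ⧸ H) := fun g => by
    let φ := Equiv.Perm.sign.comp (MulAction.toPermHom G (G ⧸ H))
    rcases IsSimpleGroup.eq_bot_or_eq_top_of_normal φ.ker inferInstance with e | e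
    · exact absurd ⟨⟨fun a b => (MonoidHom.ker_eq_bot_iff φ).1 e
        (by rw [map_mul, map_mul, mul_comm])⟩⟩ hG
    · exact MonoidHom.mem_ker.1 (e ▸ Subgroup.mem_top g : g ∈ φ.ker)
  have h3 := Subgroup.card_dvd_of_injective ((MulAction.toPermHom G (G ⧸ H)).codRestrict _ h2)
    fun a b e => h1 (congrArg Subtype.val e)
  rw [Subgroup.index_eq_card, ← Nat.card_perm, ← two_mul_nat_card_alternatingGroup]
  exact Nat.mul_dvd_mul_left _ h3

theorem lf_of_reps {xs : List G} (h : KC.Reps xs) : KC.Lf (Nat.card G) (xs.map KC.dat) := by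
  have := Fintype.ofFinite G
  have hnn : ∀ x : G, Nat.card G / (cc x * ee x) =
      (Subgroup.normalizer (Subgroup.zpowers x : Set G)).index := fun x => by
    rw [mul_comm, ee_mul, ← (Subgroup.normalizer (Subgroup.zpowers x : Set G)).card_mul_index]
    exact Nat.mul_div_cancel_left _ Nat.card_pos
  refine ⟨?_, ?_, ?_, ?_, ?_, ?_, ?_, ?_, ?_⟩
  · rw [List.forall_mem_map]
    exact fun x hx p a hp => KCP.not_primePow hG (h.ne x hx) hp
  · rw [nI_eq h, ← sum_np, sum_reps _ h, np_one, sum_filter_map, ← List.sum_map_mul_left]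
    refine Nat.add_le_add_left (List.sum_le_sum fun x hx => ?_) _
    split_ifs with e <;> simp only [dat] at e ⊢
    · rw [mul_comm, ← card_rc]
      exact sum_le_card_nsmul _ _ _ fun y hy => (mem_rc.1 hy).cc_eq ▸ np_le y
    · refine (sum_eq_zero fun y hy => by_contra fun e1 => e ?_).le
      have e2 := mem_rc.1 hy
      rw [two_ns_dvd, e2.orderOf_eq, RC.ee_eq e2]
      exact np_real (fun e3 => h.ne x hx (rc_one (e3 ▸ e2))) e1
  · rw [nI_eq h, ← sum_np, sum_reps _ h, np_one, sum_filter_map]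
    refine Nat.add_le_add_left (List.sum_le_sum fun x hx => ?_) _
    split_ifs with e
    · simp only [dat] at e ⊢
      obtain ⟨e1, e2, e3⟩ := e
      rw [two_ns_dvd] at e3
      refine Nat.le_of_mul_le_mul_right ?_ (one_le_foldr_max _ : 0 < mg2 (xs.map dat) (cc x))
      calc _ ≤ ns x * Nat.card G := by
            rw [mul_assoc]; exact Nat.mul_le_mul_left _ (Nat.div_mul_le_self _ _)
        _ = (rc x).card • cc x := (card_rc x).symm
        _ ≤ _ := by
          rw [sum_mul]
          refine card_nsmul_le_sum _ _ _ fun y hy => ?_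
          have e4 := mem_rc.1 hy
          rw [e4.cc_eq] at e2 ⊢
          exact np_ge h (e4.orderOf_eq ▸ e1) e2 (RC.ee_eq e4 ▸ e3)
    · exact Nat.zero_le _
  · intro d hd
    have h1 := KCP.frob hd
    have h2 := card_order h (· ∣ d)
    rw [if_pos (one_dvd d)] at h2
    rw [sum_filter_map]
    refine h2 ▸ ?_
    convert h1 using 1
    rw [Nat.card_eq_fintype_card, Fintype.card_subtype]
    simp only [orderOf_dvd_iff_pow_eq_one]
  · intro h1
    obtain ⟨x, -, e⟩ := List.mem_map.1 h1
    simp only [dat, Prod.mk.injEq] at e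
    rw [List.pairwise_map]
    exact h.pw.imp fun {a b} hab e1 => hab (RC.of_isConj (KCP.l3 hG e.1 e.2.2 e1.1 e1.2))
  · rw [List.forall_mem_map]
    exact fun x _ n m h1 h2 h3 => KCP.cyc hG h1 h2 h3
  · rw [List.forall_mem_map]
    intro x hx
    simp only [dat]
    rw [tot_div, hnn]
    refine two_mul_dvd hG fun e => ?_
    rcases IsSimpleGroup.eq_bot_or_eq_top_of_normal _ (Subgroup.normalizer_eq_top_iff.1 e) with e1 | e1
    · exact h.ne x hx (Subgroup.zpowers_eq_bot.1 e1)
    · have : IsCyclic G := ⟨x, fun y => (e1 ▸ Subgroup.mem_top y : y ∈ Subgroup.zpowers x)⟩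
      exact hG inferInstance
  · rw [List.forall_mem_map]
    intro x _ hp h1
    simp only [dat] at hp h1 ⊢
    have := Fact.mk hp
    rw [← Nat.totient_prime hp, tot_div, hnn]
    let P : Sylow (orderOf x) G := (IsPGroup.of_card (n := 1) (G := Subgroup.zpowers x)
      (by rw [Nat.card_zpowers, pow_one])).toSylow fun e => h1 (by
        rw [← (Subgroup.zpowers x).card_mul_index, Nat.card_zpowers]
        exact Nat.mul_dvd_mul_left _ e)
    have h2 := card_sylow_modEq_one (orderOf x) G
    rw [P.card_eq_index_normalizer] at h2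
    exact Eq.trans h2 (Nat.mod_eq_of_lt hp.one_lt)
  · intro m q hq hqm hm h1
    rw [List.forall_mem_map] at h1
    have h2 : ∀ z : G, ∃ x : G, orderOf z = m * q → x ∈ xs ∧ orderOf x = m ∧ RC x (z ^ q) := fun z => by
      by_cases e : orderOf z = m * q
      · have e1 : orderOf (z ^ q) = m := by
          rw [orderOf_pow_of_dvd hq.ne_zero (e ▸ dvd_mul_left _ _), e, Nat.mul_div_cancel _ hq.pos]
        obtain ⟨x, hx, e2⟩ := h.cover _ (ne_one_of_order e1 hm)
        exact ⟨x, fun _ => ⟨hx, e2.orderOf_eq.trans e1, e2⟩⟩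
      · exact ⟨1, fun e1 => absurd e1 e⟩
    choose r hr using h2
    rw [length_filter h, length_filter h]
    refine card_le_card_of_injOn r (fun z hz => ?_) fun z hz w hw e => ?_
    · have e : orderOf z = m * q := of_decide_eq_true (mem_filter.1 hz).2
      obtain ⟨e1, e2, e3⟩ := hr z e
      refine mem_filter.2 ⟨List.mem_toFinset.2 e1, decide_eq_true ⟨e2, ?_⟩⟩
      change q ∣ cc (r z)
      rw [e3.cc_eq]
      exact ((e ▸ dvd_mul_left _ _ : q ∣ orderOf z).trans (orderOf_dvd_cc z)).trans (cc_dvd_pow z q)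
    · have ez : orderOf z = m * q := of_decide_eq_true (mem_filter.1 hz).2
      have ew : orderOf w = m * q := of_decide_eq_true (mem_filter.1 hw).2
      obtain ⟨e1, e2, e3⟩ := hr z ez
      refine eq_of_rc h (List.mem_toFinset.1 (mem_filter.1 hz).1)
        (List.mem_toFinset.1 (mem_filter.1 hw).1)
        (KCP.sq hq hqm ez ew (e3.symm.trans (e ▸ (hr w ew).2.2)) ?_)
      rw [← e3.cc_eq, sq]
      exact h1 _ e1 e2

end Cfsg.Agent.KCG
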