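import Cfsg.Agent.Lib.KCG.A

/-! Products with a prime element central in a Sylow subgroup of the centralizer. -/

set_option autoImplicit false
set_option linter.unusedSectionVars false

open Finset Classical

namespace Cfsg.Agent.KCG
open KC J3T

variable {G : Type*} [Group G]

theorem exists_pr2 [Finite G] {x : G} {p : ℕ} (hp : p.Prime) (h1 : p ∣ cc x)
    (h2 : ¬ p ∣ orderOf x) :
    ∃ z : G, orderOf z = orderOf x * p ∧ cc z ∣ cc x ∧ ¬ p ∣ cc x / cc z := by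
  have := Fintype.ofFinite G
  obtain ⟨u, hu, hi⟩ := Nine.exists_central_elt (G := Cz x) hp h1
  have e : orderOf (u : G) = p := by rw [Subgroup.orderOf_coe, hu]
  have hc : Commute x u := (mem_Cz.1 u.2).symm
  have h3 : p.Coprime (orderOf x) := (Nat.Prime.coprime_iff_not_dvd hp).2 h2
  have h4 : (x * u) ^ p = x ^ p := by rw [hc.mul_pow, ← e, pow_orderOf_eq_one, mul_one]
  have h5 : x ∈ Subgroup.zpowers ((x * u) ^ p) := by
    rw [h4, zpowers_pow_coprime h3]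
    exact Subgroup.mem_zpowers x
  have h6 : x ∈ Subgroup.zpowers (x * u) :=
    Subgroup.zpowers_le.2 (Subgroup.npow_mem_zpowers _ p) h5
  have h7 : cc (x * u) ∣ cc x := cc_dvd_of_mem h6
  refine ⟨x * u, by rw [hc.orderOf_mul_eq_mul_orderOf_of_coprime (e ▸ h3.symm), e], h7,
    fun e1 => hi (e1.trans ?_)⟩
  have h8 : (Cz u).map (Cz x).subtype ≤ Cz (x * u) := by
    rintro _ ⟨g, hg, rfl⟩
    have a1 : (g : G) * x = x * g := mem_Cz.1 g.2
    have a2 : (g : G) * u = u * g := congrArg Subtype.val (mem_Cz.1 hg)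
    refine mem_Cz.2 ?_
    rw [Subgroup.coe_subtype, ← mul_assoc, a1, mul_assoc, a2, mul_assoc]
  have h9 : Nat.card (Cz u) ∣ cc (x * u) := by
    rw [← Subgroup.card_map_of_injective (K := Cz u) (Cz x).subtype_injective]
    exact Subgroup.card_dvd_of_le h8
  obtain ⟨k, hk⟩ := h9
  obtain ⟨m, hm⟩ := h7
  have h10 : Nat.card (Cz u) * (Cz u).index = cc x := (Cz u).card_mul_index
  rw [hm, Nat.mul_div_cancel_left _ (cc_pos _)]
  rw [hm, hk, mul_assoc] at h10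
  exact Dvd.intro_left k (Nat.eq_of_mul_eq_mul_left Nat.card_pos h10).symm

theorem pr2 [Finite G] {xs : List G} (h : Reps xs) : ∀ x ∈ xs.map dat, ∀ p : ℕ, p.Prime →
    p ∣ x.2.2 → ¬ p ∣ x.1 →
      ∃ y ∈ xs.map dat, y.1 = x.1 * p ∧ y.2.2 ∣ x.2.2 ∧ ¬ p ∣ x.2.2 / y.2.2 := by
  intro _ hx p hp h1 h2
  obtain ⟨x, -, rfl⟩ := List.mem_map.1 hx
  obtain ⟨z, z1, z2, z3⟩ := exists_pr2 (x := x) hp h1 h2
  have hz : z ≠ 1 := fun e => by
    rw [e, orderOf_one] at z1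
    exact hp.one_lt.ne' (Nat.eq_one_of_mul_eq_one_left z1.symm)
  obtain ⟨y, hy, e⟩ := h.cover z hz
  refine ⟨dat y, List.mem_map_of_mem hy, ?_⟩
  rw [e.dat_eq]
  exact ⟨z1, z2, z3⟩

end Cfsg.Agent.KCG
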