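import Cfsg.Agent.Lib.KCG.A

/-! A self-centralizing element of odd prime order with automizer of order two forces a single
class of involutions. -/

set_option autoImplicit false
set_option linter.unusedSectionVars false

open Cfsg Cfsg.Agent.Char Cfsg.Agent.KC
open scoped ComplexConjugate Classical

namespace Cfsg.Agent.KCG
open Nine hiding Cz mem_Cz
open J3T

universe u

variable {G : Type u} [Group G] [Finite G]

theorem geom_zero {c : ℂ} {n : ℕ} (h1 : c ≠ 1) (h : c ^ n = 1) : ∑ i ∈ Finset.range n, c ^ i = 0 := by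
  rw [geom_sum_eq h1, h, sub_self, zero_div]

theorem sum_tw_char {χ : G → ℂ} (hχ : IsCharacter G χ) {g : G} {c : ℂ} (hc : c ^ orderOf g = 1) :
    ∃ m : ℕ, ∑ i ∈ Finset.range (orderOf g), c ^ i * χ (g ^ i) = orderOf g * m := by
  obtain ⟨s, -, h2, hs3⟩ := exists_eigenvalues hχ g
  have h1 : ∀ i : ℕ, χ (g ^ i) = (s.map (fun ζ => ζ ^ i)).sum := fun i => by simpa using hs3 i
  simp only [h1]
  clear h1 hs3
  induction s using Multiset.induction_on with
  | empty => exact ⟨0, by simp⟩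
  | cons a s ih =>
    obtain ⟨m, hm⟩ := ih fun ζ hζ => h2 ζ (Multiset.mem_cons_of_mem hζ)
    simp only [Multiset.map_cons, Multiset.sum_cons, mul_add, Finset.sum_add_distrib, hm, ← mul_pow]
    by_cases ha : c * a = 1
    · exact ⟨m + 1, by simp [ha]; ring⟩
    · refine ⟨m, ?_⟩
      rw [geom_zero ha (by rw [mul_pow, hc, h2 a (Multiset.mem_cons_self a s), one_mul]), zero_add]

section
variable {x : G} {p : ℕ} (hp : p.Prime) (hx : orderOf x = p)
include hp hx

theorem zpowers_eq_of_prime {y : G} (hy : y ∈ Subgroup.zpowers x) (h1 : y ≠ 1) :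
    Subgroup.zpowers y = Subgroup.zpowers x := by
  refine Subgroup.eq_of_le_of_card_ge (Subgroup.zpowers_le.2 hy) ?_
  have h2 := orderOf_dvd_of_mem_zpowers hy
  rw [hx] at h2
  rw [Nat.card_zpowers, Nat.card_zpowers, hx,
    ((Nat.dvd_prime hp).1 h2).resolve_left fun e => h1 (orderOf_eq_one_iff.1 e)]

theorem inv_of_inv {g y : G} (h : g * x * g⁻¹ = x⁻¹) (hy : y ∈ Subgroup.zpowers x) :
    g * y * g⁻¹ = y⁻¹ := by
  obtain ⟨k, rfl⟩ := Subgroup.mem_zpowers_iff.1 hy
  rw [← conj_zpow, h, inv_zpow]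

variable (hc : cc x = p) (he : ee x = 2)
include hc he

theorem relIndex_two : ((Cz x).subgroupOf (Subgroup.normalizer (Subgroup.zpowers x : Set G))).index = 2 := by
  have := Fintype.ofFinite G
  have h1 := ((Cz x).subgroupOf (Subgroup.normalizer (Subgroup.zpowers x : Set G))).index_mul_card
  rw [Nat.card_congr (Subgroup.subgroupOfEquivOfLe (cent_le_norm x)).toEquiv] at h1
  have h2 := ee_mul x
  rw [he] at h2
  exact Nat.eq_of_mul_eq_mul_right (cc_pos x) (h1.trans h2.symm)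

theorem norm_cases {g : G} (hg : g ∈ Subgroup.normalizer (Subgroup.zpowers x : Set G)) :
    g * x * g⁻¹ = x ∨ g * x * g⁻¹ = x⁻¹ := by
  have := Fintype.ofFinite G
  obtain ⟨k, hk⟩ := Subgroup.mem_zpowers_iff.1 (mem_norm_iff.1 hg)
  have h1 : g * g ∈ Cz x := Subgroup.mul_self_mem_of_index_two (relIndex_two hp hx hc he) ⟨g, hg⟩
  have h2 : x ^ (k * k) = x ^ (1 : ℤ) := by
    rw [zpow_mul, hk, conj_zpow, hk, zpow_one]
    refine Eq.trans ?_ (mem_Cz'.1 h1)
    group
  have h3 : (p : ℤ) ∣ (k - 1) * (k + 1) := by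
    have := (zpow_eq_zpow_iff_modEq.1 h2).symm.dvd
    rw [hx] at this
    convert this using 1
    ring
  rcases (Nat.prime_iff_prime_int.1 hp).dvd_or_dvd h3 with e | e
  · left
    rw [← hx, orderOf_dvd_iff_zpow_eq_one, zpow_sub, zpow_one, mul_inv_eq_one] at e
    rw [← hk, e]
  · right
    rw [← hx, orderOf_dvd_iff_zpow_eq_one, zpow_add, zpow_one, mul_eq_one_iff_eq_inv] at e
    rw [← hk, e]

theorem exists_inv : ∃ g : G, g * x * g⁻¹ = x⁻¹ := by
  have := Fintype.ofFinite G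
  by_contra h
  have h1 := relIndex_two hp hx hc he
  rw [Subgroup.subgroupOf_eq_top.2 fun g hg => mem_Cz'.2
    ((norm_cases hp hx hc he hg).resolve_right fun e => h ⟨g, e⟩), Subgroup.index_top] at h1
  omega

theorem fus {y w : G} (hy : y ∈ Subgroup.zpowers x) (h1 : y ≠ 1) (hw : w ∈ Subgroup.zpowers x) :
    IsConj y w ↔ w = y ∨ w = y⁻¹ := by
  refine ⟨fun h => ?_, ?_⟩
  · obtain ⟨g, rfl⟩ := isConj_iff.1 h
    have e := zpowers_eq_of_prime hp hx hy h1
    have hg : g ∈ Subgroup.normalizer (Subgroup.zpowers x : Set G) := by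
      rw [← e] at hw ⊢
      exact mem_norm_iff.2 hw
    refine (norm_cases hp hx hc he hg).imp (fun e1 => ?_) fun e1 => inv_of_inv hp hx e1 hy
    obtain ⟨k, rfl⟩ := Subgroup.mem_zpowers_iff.1 hy
    rw [← conj_zpow, e1]
  · rintro (rfl | rfl)
    · exact IsConj.refl _
    · obtain ⟨g, hg⟩ := exists_inv hp hx hc he
      exact isConj_iff.2 ⟨g, inv_of_inv hp hx hg hy⟩

theorem cc_pow_eq {y : G} (hy : y ∈ Subgroup.zpowers x) (h1 : y ≠ 1) : cc y = p := by
  rw [← hc]
  refine Nat.dvd_antisymm (cc_dvd_of_mem ?_) (cc_dvd_of_mem hy)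
  rw [zpowers_eq_of_prime hp hx hy h1]
  exact Subgroup.mem_zpowers x

theorem exists_coef [Fintype (IrrCharacter G)] (h2 : p ≠ 2) :
    ∃ (w : ℕ → ℂ) (a : IrrCharacter G → ℤ), w 0 = 0 ∧ a (triv G) = 1 ∧ ∑ χ, a χ ^ 2 = 3 ∧
      ∀ χ, (p : ℂ) * a χ = ∑ i ∈ Finset.range p, w i * conj (χ.1 (x ^ i)) := by
  have := Fintype.ofFinite G
  have hp0 : (p : ℂ) ≠ 0 := by exact_mod_cast hp.ne_zero
  obtain ⟨ζ, hζ⟩ : ∃ ζ : ℂ, IsPrimitiveRoot ζ p := ⟨_, Complex.isPrimitiveRoot_exp p hp.ne_zero⟩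
  have hη : conj ζ = ζ⁻¹ := (Complex.inv_eq_conj (hζ.norm'_eq_one hp.ne_zero)).symm
  have z0 : ζ ≠ 0 := hζ.ne_zero hp.ne_zero
  have s1 := hζ.geom_sum_eq_zero hp.one_lt
  have s2 := hζ.inv.geom_sum_eq_zero hp.one_lt
  have s3 := (hζ.inv.pow_of_coprime 2
    ((Nat.coprime_primes Nat.prime_two hp).2 h2.symm)).geom_sum_eq_zero hp.one_lt
  have h3 : ∀ χ : IrrCharacter G, ∃ a : ℤ,
      (p : ℂ) * a = ∑ i ∈ Finset.range p, (1 - ζ ^ i) * conj (χ.1 (x ^ i)) := fun χ => by
    obtain ⟨m, hm⟩ := sum_tw_char (isChar_conj (ch χ)) (g := x) (c := 1) (one_pow _)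
    obtain ⟨n, hn⟩ := sum_tw_char (isChar_conj (ch χ)) (g := x) (c := ζ) (hx ▸ hζ.pow_eq_one)
    rw [hx] at hm hn
    simp only [one_pow] at hm
    refine ⟨m - n, ?_⟩
    simp only [sub_mul, Finset.sum_sub_distrib]
    rw [hm, hn]
    push_cast
    ring
  choose a ha using h3
  refine ⟨fun i => 1 - ζ ^ i, a, by simp, ?_, ?_, ha⟩
  · have := ha (triv G)
    simp only [triv_apply, map_one, mul_one, Finset.sum_sub_distrib, s1] at this
    have h4 : (a (triv G) : ℂ) = 1 := mul_left_cancel₀ hp0 (by simpa using this)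
    exact_mod_cast h4
  have h4 : ∀ j ∈ Finset.range p, (1 - ζ⁻¹ ^ j) * ∑ χ, (a χ : ℂ) * χ.1 (x ^ j) =
      (1 - ζ⁻¹ ^ j) * (2 - ζ ^ j - ζ⁻¹ ^ j) := fun j hj => by
    rcases Nat.eq_zero_or_pos j with rfl | j0
    · simp
    congr 1
    have jp := Finset.mem_range.1 hj
    have y1 : x ^ j ≠ 1 := pow_ne_one_of_lt_orderOf j0.ne' (hx ▸ jp)
    have ym := Subgroup.npow_mem_zpowers x j
    refine mul_left_cancel₀ hp0 ?_
    have h5 : (Finset.range p).filter (fun i => IsConj (x ^ j) (x ^ i)) = {j, p - j} := by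
      ext i
      have e1 : (x ^ j)⁻¹ = x ^ (p - j) := by
        rw [inv_eq_iff_mul_eq_one, ← pow_add, Nat.add_sub_cancel' jp.le, ← hx, pow_orderOf_eq_one]
      rw [Finset.mem_filter, Finset.mem_range, fus hp hx hc he ym y1 (Subgroup.npow_mem_zpowers x i),
        e1, Finset.mem_insert, Finset.mem_singleton]
      refine ⟨fun ⟨i1, i2⟩ => i2.imp (fun e => ?_) fun e => ?_, ?_⟩
      · exact pow_injOn_Iio_orderOf (hx ▸ i1 : i < orderOf x) (hx ▸ jp : j < orderOf x) e
      · exact pow_injOn_Iio_orderOf (hx ▸ i1 : i < orderOf x)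
          (show p - j < orderOf x by omega) e
      · rintro (rfl | rfl)
        · exact ⟨jp, Or.inl rfl⟩
        · exact ⟨by omega, Or.inr rfl⟩
    have h6 : j ≠ p - j := fun e => by
      obtain ⟨k, hk⟩ := hp.odd_of_ne_two h2
      omega
    calc _ = ∑ χ : IrrCharacter G, ∑ i ∈ Finset.range p,
          (1 - ζ ^ i) * (χ.1 (x ^ j) * conj (χ.1 (x ^ i))) := by
          rw [Finset.mul_sum]
          refine Finset.sum_congr rfl fun χ _ => ?_
          rw [← mul_assoc, ha, Finset.sum_mul]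
          exact Finset.sum_congr rfl fun i _ => by ring
      _ = ∑ i ∈ Finset.range p, if IsConj (x ^ j) (x ^ i) then (1 - ζ ^ i) * p else 0 := by
          rw [Finset.sum_comm]
          refine Finset.sum_congr rfl fun i _ => ?_
          rw [← Finset.mul_sum, second_orthogonality,
            show Nat.card (Subgroup.centralizer ({x ^ j} : Set G)) = p from cc_pow_eq hp hx hc he ym y1]
          split_ifs <;> simp
      _ = _ := by
          rw [← Finset.sum_filter, h5, Finset.sum_pair h6, pow_sub₀ _ z0 jp.le, hζ.pow_eq_one, inv_pow]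
          ring
  have h5 : (p : ℂ) * ∑ χ, (a χ : ℂ) ^ 2 = p * 3 := by
    calc _ = ∑ χ : IrrCharacter G, ∑ j ∈ Finset.range p, (1 - ζ⁻¹ ^ j) * ((a χ : ℂ) * χ.1 (x ^ j)) := by
          rw [Finset.mul_sum]
          refine Finset.sum_congr rfl fun χ _ => ?_
          have := congrArg conj (ha χ)
          simp only [map_mul, map_natCast, map_intCast, map_sum, map_sub, map_one, map_pow, hη,
            Complex.conj_conj] at this
          rw [sq, ← mul_assoc, this, Finset.sum_mul]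
          exact Finset.sum_congr rfl fun i _ => by ring
      _ = ∑ j ∈ Finset.range p, (3 - ζ ^ j - 3 * ζ⁻¹ ^ j + (ζ⁻¹ ^ 2) ^ j) := by
          rw [Finset.sum_comm]
          refine Finset.sum_congr rfl fun j hj => ?_
          rw [← Finset.mul_sum, h4 j hj, ← pow_mul, mul_comm 2 j, pow_mul]
          have : ζ ^ j * ζ⁻¹ ^ j = 1 := by rw [← mul_pow, mul_inv_cancel₀ z0, one_pow]
          linear_combination this
      _ = _ := by
          simp only [Finset.sum_add_distrib, Finset.sum_sub_distrib, ← Finset.mul_sum, s1, s2, s3]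
          simp
  exact_mod_cast mul_left_cancel₀ hp0 h5

variable [IsSimpleGroup G] (hG : ¬ IsMulCommutative G)
include hG

theorem exists_inverter_p (h2 : p ≠ 2) {t : G} (ht : orderOf t = 2) :
    ∃ s, IsConj t s ∧ s * x * s⁻¹ = x⁻¹ := by
  have := Fintype.ofFinite G
  have := Fintype.ofFinite (IrrCharacter G)
  have hp0 : (p : ℂ) ≠ 0 := by exact_mod_cast hp.ne_zero
  obtain ⟨w, c, w0, hc0, hs, ha⟩ := exists_coef hp hx hc he h2
  have h1 : ∑ χ ∈ Finset.univ.erase (triv G), c χ ^ 2 = 2 := by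
    rw [← Finset.add_sum_erase _ _ (Finset.mem_univ (triv G)), hc0] at hs
    omega
  obtain ⟨A, hA, B, hB, hAB, hcA, hcB, h0⟩ := exists_two h1
  have hA' := Finset.ne_of_mem_erase hA
  have hB' := Finset.ne_of_mem_erase hB
  have h0' : ∀ χ, χ ≠ triv G → χ ≠ A → χ ≠ B → c χ = 0 := fun χ e1 e2 e3 =>
    h0 χ (Finset.mem_erase.2 ⟨e1, Finset.mem_univ _⟩) e2 e3
  have key : ∀ f : IrrCharacter G → ℂ, (∀ i, 0 < i → i < p → ∑ χ, f χ * conj (χ.1 (x ^ i)) = 0) →
      f (triv G) + f A * c A + f B * c B = 0 := fun f hf => by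
    refine mul_left_cancel₀ hp0 ?_
    calc _ = ∑ χ, f χ * (p * c χ) := by
          rw [sum_eq_three hA' hB' hAB fun χ e1 e2 e3 => by rw [h0' χ e1 e2 e3]; simp, hc0]
          push_cast
          ring
      _ = ∑ i ∈ Finset.range p, w i * ∑ χ, f χ * conj (χ.1 (x ^ i)) := by
          simp only [ha, Finset.mul_sum]
          rw [Finset.sum_comm]
          exact Finset.sum_congr rfl fun i _ => Finset.sum_congr rfl fun χ _ => by ring
      _ = _ := by
          rw [mul_zero]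
          refine Finset.sum_eq_zero fun i hi => ?_
          rcases Nat.eq_zero_or_pos i with rfl | i0
          · rw [w0, zero_mul]
          · rw [hf i i0 (Finset.mem_range.1 hi), mul_zero]
  have hy1 : ∀ i, 0 < i → i < p → x ^ i ≠ 1 := fun i i0 ip =>
    pow_ne_one_of_lt_orderOf i0.ne' (hx ▸ ip)
  have h3 : (1 : ℤ) + dg A * c A + dg B * c B = 0 := by
    have := key (fun χ => χ.1 1) fun i i0 ip => by
      rw [second_orthogonality, if_neg fun e => hy1 i i0 ip (isConj_one_right.1 e)]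
    simp only [triv_apply, apply_one] at this
    exact_mod_cast this
  have h5 := key (fun χ => χ.1 t) fun i i0 ip => by
    rw [second_orthogonality, if_neg fun e => ?_]
    have e1 := orderOf_dvd_of_mem_zpowers (Subgroup.npow_mem_zpowers x i)
    rw [← orderOf_of_isConj e, ht, hx] at e1
    exact h2 ((Nat.prime_dvd_prime_iff_eq Nat.prime_two hp).1 e1).symm
  have ht1 := ne_one_of_orderOf Nat.prime_two ht
  have h6 : ∃ i, 0 < i ∧ i < p ∧ ((cl t).filter fun l => IsConj (x ^ i) (t * l)).card ≠ 0 := by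
    by_contra hn
    push Not at hn
    have h4 := key (fun χ => χ.1 t * χ.1 t / dg χ) fun i i0 ip => by
      have h4 := count_eq t t (x ^ i)
      rw [hn i i0 ip, Nat.cast_zero, zero_mul, eq_comm, mul_eq_zero] at h4
      rcases h4 with h4 | h4
      · exact absurd (by exact_mod_cast h4) (card_cl_pos t).ne'
      · rw [← h4]
        exact Finset.sum_congr rfl fun χ _ => by ring
    simp only [triv_apply, dg_triv] at h4 h5
    have dA := two_le_dg hG hA'
    have dB := two_le_dg hG hB'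
    clear key h0 h0' hA hB hAB
    wlog hs : c A = 1 ∧ c B = -1 generalizing A B
    · refine this B A hcB hcA hB' hA' (by rw [← h3]; ring) (by rw [← h5]; ring) (by rw [← h4]; ring)
        dB dA ?_
      rcases hcA with e1 | e1 <;> rcases hcB with e2 | e2 <;> rw [e1, e2] at h3 <;> omega
    rw [hs.1, hs.2] at h3 h4 h5
    have h7 := dg_ne A
    have h8 := dg_ne B
    have h9 : (dg B : ℂ) = dg A + 1 := by exact_mod_cast (show (dg B : ℤ) = dg A + 1 by omega)
    have h10 : B.1 t = A.1 t + 1 := by push_cast at h5; linear_combination -h5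
    push_cast at h4
    rw [h9] at h8
    rw [h9, h10] at h4
    field_simp at h4
    refine ne_dg hA' ht1 (sub_eq_zero.1 (pow_eq_zero_iff two_ne_zero |>.1 ?_))
    linear_combination h4
  obtain ⟨i, i0, ip, h6⟩ := h6
  obtain ⟨l, hl⟩ := Finset.card_pos.1 (Nat.pos_of_ne_zero h6)
  rw [Finset.mem_filter, mem_cl] at hl
  obtain ⟨g, hg⟩ := isConj_iff.1 hl.2.symm
  have tt : t * t = 1 := by rw [← pow_two, ← ht, pow_orderOf_eq_one]
  have ll : l * l = 1 := by rw [← pow_two, ← ht, orderOf_of_isConj hl.1, pow_orderOf_eq_one]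
  have h7 : g * t * g⁻¹ * x ^ i * (g * t * g⁻¹)⁻¹ = (x ^ i)⁻¹ := by
    rw [← hg]
    calc _ = g * (t * t * l * t⁻¹) * g⁻¹ := by group
      _ = _ := by rw [tt, one_mul, ← inv_eq_of_mul_eq_one_right ll, inv_eq_of_mul_eq_one_right ll,
        mul_inv_rev, mul_inv_rev, mul_inv_rev, inv_inv, inv_eq_of_mul_eq_one_right ll]; group
  refine ⟨g * t * g⁻¹, isConj_iff.2 ⟨g, rfl⟩, ?_⟩
  have h8 : x ∈ Subgroup.zpowers (x ^ i) := by
    rw [zpowers_eq_of_prime hp hx (Subgroup.npow_mem_zpowers x i) (hy1 i i0 ip)]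
    exact Subgroup.mem_zpowers x
  obtain ⟨k, hk⟩ := Subgroup.mem_zpowers_iff.1 h8
  rw [← hk, ← conj_zpow, h7, inv_zpow]

end

variable [IsSimpleGroup G] (hG : ¬ IsMulCommutative G)
include hG

theorem lp {x t u : G} {p : ℕ} (hp : p.Prime) (h2 : p ≠ 2) (hx : orderOf x = p) (hc : cc x = p)
    (he : ee x = 2) (ht : orderOf t = 2) (hu : orderOf u = 2) : IsConj t u := by
  have := Fintype.ofFinite G
  obtain ⟨s, hs, e1⟩ := exists_inverter_p hp hx hc he hG h2 ht
  obtain ⟨r, hr, e2⟩ := exists_inverter_p hp hx hc he hG h2 hu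
  have hC : Subgroup.zpowers x = Cz x := Subgroup.eq_of_le_of_card_ge
    (Subgroup.zpowers_le.2 (mem_Cz.2 rfl)) (by rw [Nat.card_zpowers, hx]; exact hc.le)
  refine hs.trans (IsConj.trans ?_ hr.symm)
  have h1 : s⁻¹ * r ∈ Subgroup.zpowers x := by
    rw [hC, mem_Cz]
    calc _ = s⁻¹ * (r * x * r⁻¹) * r := by group
      _ = _ := by rw [e2, ← e1]; group
  obtain ⟨k, hk⟩ := hp.odd_of_ne_two h2
  have h3 : (s⁻¹ * r) ^ p = 1 :=
    orderOf_dvd_iff_pow_eq_one.1 (hx ▸ orderOf_dvd_of_mem_zpowers h1)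
  have h4 : (s⁻¹ * r) ^ (k + 1) * (s⁻¹ * r) ^ (k + 1) = s⁻¹ * r := by
    rw [← pow_add, show k + 1 + (k + 1) = p + 1 by omega, pow_succ, h3, one_mul]
  have h5 := inv_of_inv hp hx e1 (pow_mem h1 (k + 1))
  generalize (s⁻¹ * r) ^ (k + 1) = d at h4 h5
  refine isConj_iff.2 ⟨d⁻¹, ?_⟩
  rw [inv_inv, ← h5, inv_mul_cancel_right, mul_assoc, h4, mul_inv_cancel_left]

theorem lp_list {xs : List G} (h : Reps xs) {p s : ℕ} (h1 : (p, s, p) ∈ xs.map dat) (hp : p.Prime)
    (h2 : 2 * s + 1 = p) : (xs.map dat).Pairwise fun x y => ¬ (x.1 = 2 ∧ y.1 = 2) := by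
  obtain ⟨x, -, e⟩ := List.mem_map.1 h1
  simp only [dat, Prod.mk.injEq] at e
  have h3 : ee x = 2 := by
    have h4 := ns_mul x
    rw [e.1, e.2.1, Nat.totient_prime hp] at h4
    have h5 := hp.two_le
    refine Nat.eq_of_mul_eq_mul_left (show 0 < s by omega) ?_
    omega
  rw [List.pairwise_map]
  exact h.pw.imp fun {a b} hab e1 =>
    hab (RC.of_isConj (lp hG hp (by omega) e.1 e.2.2 h3 e1.1 e1.2))

end Cfsg.Agent.KCG
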