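import Mathlib

/-! Centralizers of elements of order `4` in `L₃(4)`. -/

set_option autoImplicit false

namespace Cfsg.Agent.KCG
open Matrix

/-- the underlying matrix -/
abbrev sv {n F : Type} [Fintype n] [DecidableEq n] [Field F] : Matrix.SpecialLinearGroup n F →* Matrix n n F :=
  Matrix.SpecialLinearGroup.coeMonoidHom

theorem psl_mk_eq {n F : Type} [Fintype n] [DecidableEq n] [Field F] {g h : Matrix.SpecialLinearGroup n F} {c : F}
    (e : sv h = c • sv g) :
    (QuotientGroup.mk g : ProjectiveSpecialLinearGroup n F) = QuotientGroup.mk h := by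
  have : sv (g⁻¹ * h) = c • 1 := by rw [map_mul, e, Matrix.mul_smul, ← map_mul, inv_mul_cancel, map_one]
  exact QuotientGroup.eq.2 (Subgroup.mem_center_iff.2 fun k => Matrix.SpecialLinearGroup.coeMonoidHom_injective (by
    rw [map_mul _ k, map_mul _ _ k, this]; simp))

theorem psl_eq {n F : Type} [Fintype n] [DecidableEq n] [Field F] {g h : Matrix.SpecialLinearGroup n F}
    (e : (QuotientGroup.mk g : ProjectiveSpecialLinearGroup n F) = QuotientGroup.mk h) :
    ∃ c : F, c ^ Fintype.card n = 1 ∧ sv h = c • sv g := by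
  obtain ⟨c, h1, h2⟩ := Matrix.SpecialLinearGroup.mem_center_iff.1
    (QuotientGroup.eq (s := Subgroup.center (Matrix.SpecialLinearGroup n F)).1 e)
  refine ⟨c, h1, ?_⟩
  rw [← mul_inv_cancel_left g h, map_mul _ g, show sv (g⁻¹ * h) = _ from h2.symm, scalar_apply,
    ← smul_one_eq_diagonal]
  simp

theorem comm_poly {F : Type} [Field F] {N g : Matrix (Fin 3) (Fin 3) F} (h3 : N ^ 3 = 0) (h2 : N ^ 2 ≠ 0)
    (h : g * N = N * g) : ∃ a b c : F, g = a • 1 + b • N + c • N ^ 2 := by
  obtain ⟨v, hv⟩ : ∃ v, (N ^ 2) *ᵥ v ≠ 0 := by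
    by_contra hc
    push Not at hc
    exact h2 (Matrix.toLin'.injective (LinearMap.ext fun v => by simpa only [toLin'_apply, zero_mulVec] using hc v))
  have e3 : N * N ^ 2 = 0 := by rw [← pow_succ', h3]
  have e4 : N * N = N ^ 2 := (pow_two N).symm
  have li : LinearIndependent F ![v, N *ᵥ v, (N ^ 2) *ᵥ v] := by
    rw [Fintype.linearIndependent_iff]
    intro l hl
    simp only [Fin.sum_univ_three, cons_val_zero, cons_val_one, cons_val] at hl
    have k1 := congrArg (N *ᵥ ·) hl
    simp only [mulVec_add, mulVec_smul, mulVec_mulVec, e3, e4, zero_mulVec, smul_zero, add_zero, mulVec_zero] at k1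
    have k2 := congrArg (N *ᵥ ·) k1
    simp only [mulVec_add, mulVec_smul, mulVec_mulVec, e3, e4, zero_mulVec, smul_zero, add_zero, mulVec_zero] at k2
    have l0 := (smul_eq_zero.1 k2).resolve_right hv
    rw [l0, zero_smul, zero_add] at k1
    have l1 := (smul_eq_zero.1 k1).resolve_right hv
    rw [l0, l1, zero_smul, zero_smul, zero_add, zero_add] at hl
    have l2 := (smul_eq_zero.1 hl).resolve_right hv
    intro i
    fin_cases i
    exacts [l0, l1, l2]
  have sp := li.span_eq_top_of_card_eq_finrank (by simp)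
  obtain ⟨l, hl⟩ := (Submodule.mem_span_range_iff_exists_fun F).1 (sp ▸ Submodule.mem_top (x := g *ᵥ v))
  simp only [Fin.sum_univ_three, cons_val_zero, cons_val_one, cons_val] at hl
  refine ⟨l 0, l 1, l 2, Matrix.toLin'.injective (LinearMap.ext_on_range sp fun i => ?_)⟩
  have k1 := congrArg (N *ᵥ ·) hl
  simp only [mulVec_add, mulVec_smul, mulVec_mulVec, e3, e4, zero_mulVec, smul_zero, add_zero, ← h] at k1
  have k2 := congrArg (N *ᵥ ·) k1
  simp only [mulVec_add, mulVec_smul, mulVec_mulVec, e3, e4, zero_mulVec, smul_zero, add_zero, ← mul_assoc, ← h,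
    mul_assoc g] at k2
  have e5 : N ^ 2 * N = 0 := by rw [← pow_succ, h3]
  have e6 : N ^ 2 * N ^ 2 = 0 := by rw [pow_two N, mul_assoc, ← pow_two N, e3, mul_zero]
  rw [toLin'_apply, toLin'_apply]
  fin_cases i
  · simp [← hl, add_mulVec, smul_mulVec]
  · simp [← k1, add_mulVec, smul_mulVec, add_mul, e4, e5]
  · simp [← k2, add_mulVec, smul_mulVec, add_mul, e3, e6]

theorem l34c {F : Type} [Field F] [Fintype F] (hF : Fintype.card F = 4)
    (x : Matrix.ProjectiveSpecialLinearGroup (Fin 3) F) (hx : orderOf x = 4) :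
    Nat.card (Subgroup.centralizer ({x} : Set (Matrix.ProjectiveSpecialLinearGroup (Fin 3) F))) ≤ 16 := by
  obtain ⟨X, rfl⟩ := QuotientGroup.mk_surjective x
  have two : (2 : F) = 0 := by
    have := FiniteField.cast_card_eq_zero F
    rw [hF] at this
    exact mul_self_eq_zero.1 (by rw [← this]; norm_num)
  have two' : (2 : Matrix (Fin 3) (Fin 3) F) = 0 := by
    rw [← one_add_one_eq_two, ← two_smul F, two, zero_smul]
  obtain ⟨r, r3, hr⟩ := psl_eq (g := 1) (h := X ^ 4) (by
    rw [QuotientGroup.mk_pow, ← hx, pow_orderOf_eq_one]; rfl)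
  rw [Fintype.card_fin] at r3
  obtain ⟨M, hM⟩ : ∃ M, M = r ^ 2 • sv X := ⟨_, rfl⟩
  have M4 : M ^ 4 = 1 := by
    rw [hM, smul_pow, ← map_pow, hr, smul_smul, map_one,
      show (r ^ 2) ^ 4 * r = (r ^ 3) ^ 3 by ring, r3, one_pow, one_smul]
  have sq : ∀ A : Matrix (Fin 3) (Fin 3) F, (A + 1) ^ 2 = A ^ 2 + 1 := fun A => by
    rw [(Commute.one_right A).add_pow']
    simp [Finset.Nat.antidiagonal_succ, two', add_comm]
  have h2 : (M + 1) ^ 2 ≠ 0 := fun e => by
    rw [sq, add_eq_zero_iff_eq_neg, hM, smul_pow, ← map_pow] at e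
    have := psl_mk_eq (g := X ^ 2) (h := 1) (c := -(r ^ 2) ^ 2) (by rw [neg_smul, e]; simp)
    have := orderOf_dvd_of_pow_eq_one ((QuotientGroup.mk_pow _ X 2).symm.trans this)
    rw [hx] at this; omega
  have h3 : (M + 1) ^ 3 = 0 := by
    have n : IsNilpotent (M + 1) := ⟨2 * 2, by rw [pow_mul, sq, sq, ← pow_mul, M4, one_add_one_eq_two, two']⟩
    have := (Matrix.isNilpotent_charpoly_sub_pow_of_isNilpotent n).eq_zero
    have e := Matrix.aeval_self_charpoly (M + 1)
    rw [sub_eq_zero.1 this] at e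
    simpa using e
  have key : ∀ g : Subgroup.centralizer ({(QuotientGroup.mk X : ProjectiveSpecialLinearGroup (Fin 3) F)} : Set _),
      ∃ p : F × F, ∃ a : F, a ≠ 0 ∧ ∃ Y : Matrix.SpecialLinearGroup (Fin 3) F, QuotientGroup.mk Y = g.1 ∧
        sv Y = a • (1 + p.1 • (M + 1) + p.2 • (M + 1) ^ 2) := fun ⟨g, hg⟩ => by
    obtain ⟨Y, rfl⟩ := QuotientGroup.mk_surjective g
    obtain ⟨c, c3, hc⟩ := psl_eq (g := X) (h := Y * X * Y⁻¹) (by
      rw [QuotientGroup.mk_mul, QuotientGroup.mk_mul, Subgroup.mem_centralizer_singleton_iff.1 hg,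
        QuotientGroup.mk_inv, mul_inv_cancel_right])
    rw [Fintype.card_fin] at c3
    have c1 : c = 1 := by
      have := congrArg (· ^ 4) hc
      simp only [smul_pow, ← map_pow, conj_pow] at this
      rw [map_mul, map_mul, hr, map_one, Matrix.mul_smul, Matrix.smul_mul, mul_one, ← map_mul, mul_inv_cancel, map_one,
        pow_succ, c3, one_mul] at this
      have e := congrFun (congrFun this 0) 0
      simp only [Matrix.smul_apply, one_apply_eq, smul_eq_mul, mul_one] at e
      exact (mul_eq_right₀ (by rintro rfl; simp at r3)).1 e.symm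
    rw [c1, one_smul] at hc
    have e := congrArg sv (mul_inv_eq_iff_eq_mul.1 (Matrix.SpecialLinearGroup.coeMonoidHom_injective hc))
    rw [map_mul, map_mul] at e
    obtain ⟨a, b, c, h⟩ := comm_poly (g := sv Y) h3 h2 (by
      rw [hM, mul_add, add_mul, Matrix.mul_smul, Matrix.smul_mul, e, mul_one, one_mul])
    have a0 : a ≠ 0 := fun e0 => h2 (by
      have : sv Y * (M + 1) ^ 2 = 0 := by
        rw [h, e0, zero_smul, zero_add, add_mul, Matrix.smul_mul, Matrix.smul_mul, ← pow_succ', h3, ← pow_add,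
          pow_succ _ 3, h3]; simp
      rw [← one_mul ((M + 1) ^ 2), show (1 : Matrix (Fin 3) (Fin 3) F) * (M + 1) ^ 2 = sv Y⁻¹ * (sv Y * (M + 1) ^ 2) by
        rw [← mul_assoc, ← map_mul, inv_mul_cancel, map_one], this, mul_zero])
    exact ⟨(b / a, c / a), a, a0, Y, rfl, by
      rw [h, smul_add a, smul_add a, smul_smul, smul_smul, mul_div_cancel₀ _ a0, mul_div_cancel₀ _ a0]⟩
  choose p a a0 Y h1 h4 using key
  refine (Nat.card_le_card_of_injective p fun g h e => Subtype.ext ?_).trans (by simp [hF])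
  rw [← h1, ← h1]
  exact psl_mk_eq (c := a h / a g) (by rw [h4, h4, e, smul_smul, div_mul_cancel₀ _ (a0 g)])

end Cfsg.Agent.KCG
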